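import Cfsg.Agent.Chevalley.Data.SysE7
import Cfsg.Prelude.Def_ChevAutomorphisms

/-!
Checks on the root system of type E7: a Weyl word with a functional modulo 13 which it doubles, the
roots killed by the functional, its stabiliser, and the invertibility of the word minus two modulo 5.
-/

set_option autoImplicit false

namespace CfsgLib.E7Order65

open Cfsg.Lie CfsgLib.Chevalley

/-- The Weyl word. -/
def word : List (Fin chevE7.rank) :=
  [⟨0, by decide⟩, ⟨1, by decide⟩, ⟨4, by decide⟩, ⟨5, by decide⟩, ⟨2, by decide⟩, ⟨3, by decide⟩]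

/-- The image of a root under the word. -/
def wp (s : ℕ) : ℕ := [0, 1, 4, 5, 2, 3].foldr (fun i x => chevE7.reflectRoot i x) s

/-- The exponents of the torus element. -/
def mexp (j : ℕ) : ℤ := [6, 1, 5, 3, 5, 12, 0].getD j 0

/-- The exponent of the value at a root. -/
def jsum (s : ℕ) : ℤ := ((List.range 7).map fun j => mexp j * chevE7.cartan j s).sum

/-- The functional. -/
def jv (s : ℕ) : ℤ := jsum s % 13

/-- The positive roots killed by the functional. -/
def zs : List ℕ := [91, 108, 111]

/-- The roots killed by the functional. -/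
def zAll : List ℕ := [91, 108, 111, 34, 17, 14]

theorem wp_facts : ∀ s < 126, wp s < 126 ∧ jv (wp s) = 2 * jv s % 13 := by decide +kernel

theorem jv_zero : ∀ s < 126, 63 ≤ s → jv s = 0 → s ∈ zs := by decide +kernel

theorem jv_zs : ∀ z ∈ zAll, jv z = 0 := by decide +kernel

theorem jv_one : jv 93 ≠ 0 := by decide +kernel

theorem neg_zs : chevE7.neg 91 = 34 ∧ chevE7.neg 108 = 17 ∧ chevE7.neg 111 = 14 := by
  decide +kernel

theorem wp_zs : wp 91 = 108 ∧ wp 108 = 111 ∧ wp 111 = 91 ∧ wp 34 = 17 ∧ wp 17 = 14 ∧ wp 14 = 34 :=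
  by decide +kernel

theorem chain_zs : ∀ r ∈ zs, ∀ z ∈ zAll, z ≠ r → z ≠ chevE7.neg r → chevE7.chainEntry r z = [] := by
  decide +kernel

theorem zs_even : ∀ r ∈ zs, ∀ z ∈ zs,
    (2 : ℤ) ∣ ((List.range 7).map fun i => (chevE7.coroot.getD z #[]).getD i 0 * chevE7.cartan i r).sum := by
  decide +kernel

theorem coroot_neg : ∀ z ∈ zs, ∀ i < 7,
    (2 : ℤ) ∣ (chevE7.coroot.getD (chevE7.neg z) #[]).getD i 0 - (chevE7.coroot.getD z #[]).getD i 0 := by
  decide +kernel

/-- The partial images of the fundamental roots keeping the functional and the pairings. -/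
def leaves : ℕ → List (List ℕ)
  | 0 => [[]]
  | k + 1 => (leaves k).flatMap fun img =>
      (((List.range 126).filter fun r => decide (jv r = jv (chevE7.simple k))).filter fun r =>
        (List.range k).all fun j =>
          decide (chevE7.pairing (img.getD j 0) r = chevE7.pairing (chevE7.simple j) (chevE7.simple k) ∧
            chevE7.pairing r (img.getD j 0) = chevE7.pairing (chevE7.simple k) (chevE7.simple j))).map
        fun r => img ++ [r]

/-- The coordinates of the image of a root. -/
def vimg (img : List ℕ) (z j : ℕ) : ℤ :=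
  ((List.range 7).map fun m => tabE7.coord 7 m z * tabE7.coord 7 j (img.getD m 0)).sum

/-- The image of a killed root is that root or its negative. -/
def sameUp (img : List ℕ) (z : ℕ) : Bool :=
  (List.range 7).all (fun j => decide (vimg img z j = tabE7.coord 7 j z)) ||
    (List.range 7).all fun j => decide (vimg img z j = tabE7.coord 7 j (chevE7.neg z))

/-- If all three killed roots are fixed, so are the fundamental roots. -/
def trivialIf (img : List ℕ) : Bool :=
  !(zs.all fun z => (List.range 7).all fun j => decide (vimg img z j = tabE7.coord 7 j z)) ||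
    decide (img = (List.range 7).map chevE7.simple)

theorem leaves_ok : (leaves 7).all (fun img => zs.all (sameUp img) && trivialIf img) = true := by
  decide +kernel

/-- The certificate modulo five. -/
def certC (i k : ℕ) : ℤ :=
  ([[-1, 1, -1, -1, 2, -1, 0], [2, 2, -2, 1, -2, 1, 0], [-1, 2, -2, -2, -1, -2, 0],
    [2, -1, -2, -2, -2, 1, 0], [-1, -2, 1, 2, 2, -1, 0], [2, -1, -2, 1, 1, 0, 0],
    [1, 2, -1, -2, -2, -1, -1]].getD i []).getD k 0

/-- The multiples of five in the certificate. -/
def certE (i k : ℕ) : ℤ :=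
  ([[-1, 0, -1, -1, 0, -1, 0], [1, 2, -1, 1, 0, 1, 0], [-1, 1, -1, -1, -1, -1, 0],
    [1, 0, -1, 0, 0, 1, 0], [0, -1, 1, 1, 1, -1, 0], [1, 0, -1, 1, 1, 0, 0],
    [0, 1, -1, -1, -1, 0, 0]].getD i []).getD k 0

theorem cert_five : ∀ i < 7, ∀ j < 7, chevE7.cartan j (chevE7.simple i) =
    ((List.range 7).map fun k => certC i k *
      (chevE7.cartan j (wp (chevE7.simple k)) - 2 * chevE7.cartan j (chevE7.simple k))).sum +
    ((List.range 7).map fun k => certE i k * (5 * chevE7.cartan j (chevE7.simple k))).sum := by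
  decide +kernel

end CfsgLib.E7Order65
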