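import Cfsg.Agent.Chevalley.Core
import Cfsg.Agent.Chevalley.Parabolic
import Cfsg.Agent.E7Order65.Data

/-!
The action on the three-dimensional pieces at the killed roots, in characteristic two.
-/

set_option autoImplicit false

namespace CfsgLib.E7Order65

open Cfsg.Lie CfsgLib.Chevalley
open scoped Matrix

local notation "S" => sysE7

variable {K : Type*} [Field K]

theorem mem_zAll {z : ℕ} (hz : z ∈ zs) : z ∈ zAll ∧ chevE7.neg z ∈ zAll ∧ z < chevE7.nroots ∧
    chevE7.neg z < chevE7.nroots ∧ chevE7.neg z ≠ z ∧ 63 ≤ z :=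
  (by decide +kernel : ∀ z ∈ zs, z ∈ zAll ∧ chevE7.neg z ∈ zAll ∧ z < chevE7.nroots ∧
    chevE7.neg z < chevE7.nroots ∧ chevE7.neg z ≠ z ∧ 63 ≤ z) z hz

/-- The two roots of a piece. -/
def rt (z : ℕ) (q : Fin 2) : ℕ := if q = 0 then z else chevE7.neg z

theorem rt_lt {z : ℕ} (hz : z ∈ zs) (q : Fin 2) : rt z q < chevE7.nroots := by
  obtain ⟨-, -, h1, h2, -, -⟩ := mem_zAll hz
  unfold rt
  split_ifs
  exacts [h1, h2]

theorem rt_mem {z : ℕ} (hz : z ∈ zs) (q : Fin 2) : rt z q ∈ zAll := by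
  obtain ⟨h1, h2, -, -, -, -⟩ := mem_zAll hz
  unfold rt
  split_ifs
  exacts [h1, h2]

/-- The root vector of a piece. -/
def ev' (K : Type*) [Field K] (z : ℕ) (q : Fin 2) : chevE7.Idx → K := bv chevE7 K (chevE7.rank + rt z q)

/-- `A` acts on the piece at `z` by the matrix `B`. -/
def St (z : ℕ) (A : Matrix chevE7.Idx chevE7.Idx K) (B : Matrix (Fin 2) (Fin 2) K) : Prop :=
  A *ᵥ hvec chevE7 K z = hvec chevE7 K z ∧
    ∀ q, ∃ c : K, A *ᵥ ev' K z q = B 0 q • ev' K z 0 + B 1 q • ev' K z 1 + c • hvec chevE7 K z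

theorem St.one (z : ℕ) : St z (1 : Matrix chevE7.Idx chevE7.Idx K) 1 := by
  exact ⟨by simp, Fin.forall_fin_two.mpr ⟨⟨0, by simp⟩, ⟨0, by simp⟩⟩⟩

theorem St.mul {z : ℕ} {A A' : Matrix chevE7.Idx chevE7.Idx K} {B B' : Matrix (Fin 2) (Fin 2) K}
    (h : St z A B) (h' : St z A' B') : St z (A * A') (B * B') := by
  refine ⟨by rw [← Matrix.mulVec_mulVec, h'.1, h.1], fun q => ?_⟩
  obtain ⟨c, hc⟩ := h'.2 q
  obtain ⟨c0, h0⟩ := h.2 0
  obtain ⟨c1, h1⟩ := h.2 1
  refine ⟨B' 0 q * c0 + B' 1 q * c1 + c, ?_⟩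
  rw [← Matrix.mulVec_mulVec, hc, Matrix.mulVec_add, Matrix.mulVec_add, Matrix.mulVec_smul,
    Matrix.mulVec_smul, Matrix.mulVec_smul, h.1, h0, h1]
  simp only [Matrix.mul_apply, Fin.sum_univ_two]
  module

/-- The matrix is determined. -/
theorem St.entry {z : ℕ} (hz : z ∈ zs) {A : Matrix chevE7.Idx chevE7.Idx K}
    {B : Matrix (Fin 2) (Fin 2) K} (h : St z A B) (p q : Fin 2) :
    B p q = A (Sum.inr ⟨rt z p, rt_lt hz p⟩) (Sum.inr ⟨rt z q, rt_lt hz q⟩) := by
  obtain ⟨c, hc⟩ := h.2 q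
  have e := congrFun hc (Sum.inr ⟨rt z p, rt_lt hz p⟩)
  rw [show ev' K z q = Pi.single (Sum.inr ⟨rt z q, rt_lt hz q⟩) 1 from
    bv_inr chevE7 K ⟨rt z q, rt_lt hz q⟩, Matrix.mulVec_single] at e
  obtain ⟨-, -, -, -, hne, -⟩ := mem_zAll hz
  have hne' : z ≠ chevE7.neg z := Ne.symm hne
  simp only [Pi.smul_apply, Pi.add_apply, ev', bv_inr_apply, hvec_inr] at e
  simp only [MulOpposite.op_one, one_smul, Matrix.col_apply, smul_eq_mul, mul_zero, add_zero] at e
  rw [e]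
  fin_cases p <;> simp [rt, hne, hne']

theorem St.unique {z : ℕ} (hz : z ∈ zs) {A : Matrix chevE7.Idx chevE7.Idx K}
    {B B' : Matrix (Fin 2) (Fin 2) K} (h : St z A B) (h' : St z A B') : B = B' :=
  Matrix.ext fun p q => by rw [h.entry hz, h'.entry hz]

variable [CharP K 2]

theorem cast_of_even {a : ℤ} (h : (2 : ℤ) ∣ a) : (a : K) = 0 :=
  (CharP.intCast_eq_zero_iff K 2 a).mpr (by exact_mod_cast h)

theorem hvec_neg {z : ℕ} (hz : z ∈ zs) : hvec chevE7 K (chevE7.neg z) = hvec chevE7 K z := by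
  funext row
  rcases row with i | u
  · rw [hvec_inl, hvec_inl, ← sub_eq_zero, ← Int.cast_sub]
    exact cast_of_even (coroot_neg z hz i i.isLt)
  · rw [hvec_inr, hvec_inr]

theorem x_hvec {r z : ℕ} (hr : r ∈ zs) (hz : z ∈ zs) (t : K) :
    chevE7.x K r t *ᵥ hvec chevE7 K z = hvec chevE7 K z := by
  obtain ⟨-, -, hr', -, -, -⟩ := mem_zAll hr
  simp only [hvec, ← List.sum_toFinset _ List.nodup_range, List.toFinset_range, Matrix.mulVec_sum,
    Matrix.mulVec_smul]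
  rw [Finset.sum_congr rfl fun j hj => by rw [x_bv_h hr' (Finset.mem_range.mp hj) t, smul_sub,
    smul_smul], Finset.sum_sub_distrib, ← Finset.sum_smul, sub_eq_self]
  rw [show (∑ j ∈ Finset.range chevE7.rank, (((chevE7.coroot.getD z #[]).getD j 0 : ℤ) : K) *
      ((chevE7.cartan j r : K) * t)) = (((List.range 7).map fun i =>
        (chevE7.coroot.getD z #[]).getD i 0 * chevE7.cartan i r).sum : ℤ) * t by
    rw [← List.sum_toFinset _ List.nodup_range, List.toFinset_range, Int.cast_sum, Finset.sum_mul]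
    refine Finset.sum_congr rfl fun j _ => ?_
    push_cast
    ring]
  rw [cast_of_even (zs_even r hr z hz), zero_mul, zero_smul]

/-- Root elements at the killed roots. -/
theorem St.root {r z : ℕ} (hr : r ∈ zs) (hz : z ∈ zs) (t : K) :
    St z (chevE7.x K r t) !![1, if r = z then t ^ 2 else 0; 0, 1] := by
  refine ⟨x_hvec hr hz t, fun q => ?_⟩
  obtain ⟨-, -, hr', -, -, -⟩ := mem_zAll hr
  by_cases hrz : r = z
  · subst hrz
    fin_cases q
    · refine ⟨0, ?_⟩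
      simp [ev', rt, x_bv_self hr']
    · refine ⟨t, ?_⟩
      simp only [ev', rt, Fin.mk_one, Fin.isValue, one_ne_zero, if_false, if_true]
      rw [x_bv_neg (sysE7).wf hr', sub_eq_add_neg, ← neg_smul, CharTwo.neg_eq]
      simp only [Matrix.of_apply, Matrix.cons_val', Matrix.cons_val_one, Matrix.cons_val_zero,
        Matrix.cons_val_fin_one, if_true, one_smul]
      abel
  · refine ⟨0, ?_⟩
    have hne : rt z q ≠ r ∧ rt z q ≠ chevE7.neg r :=
      (by decide +kernel : ∀ r ∈ zs, ∀ z ∈ zs, r ≠ z → ∀ q, rt z q ≠ r ∧ rt z q ≠ chevE7.neg r)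
        r hr z hz hrz q
    rw [ev', x_bv_chain (sysE7).wf hr' (rt_lt hz q) hne.1 hne.2,
      chain_zs r hr _ (rt_mem hz q) hne.1 hne.2]
    fin_cases q <;> simp [hrz, ev', rt]

/-- Diagonal matrices. -/
theorem St.diag (z : ℕ) (χ : ℕ → K) : St z (dg chevE7 χ) !![χ z, 0; 0, χ (chevE7.neg z)] ∨
    ¬ z ∈ zs := by
  by_cases hz : z ∈ zs
  · refine Or.inl ⟨dg_hvec χ z, fun q => ⟨0, ?_⟩⟩
    rw [ev', dg_bve χ (rt_lt hz q)]
    fin_cases q <;> simp [ev', rt]
  · exact Or.inr hz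

theorem St.tor {z : ℕ} (hz : z ∈ zs) (c : ℕ → Kˣ) :
    St z (Chevalley.tor chevE7 K c : Matrix chevE7.Idx chevE7.Idx K)
      !![(torusVal chevE7 c z : K), 0; 0, (torusVal chevE7 c (chevE7.neg z) : K)] := by
  rw [Sys.tor_val S]
  exact ((St.diag z fun s => (torusVal chevE7 c s : K)).resolve_right fun h => h hz)

/-- Monomial elements send coroot vectors along. -/
theorem monomial_hvec (n : ↥(chevE7.monomialSubgroup K)) (s : Fin chevE7.nroots) :
    ((n : GL chevE7.Idx K) : Matrix chevE7.Idx chevE7.Idx K) *ᵥ hvec chevE7 K s =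
      hvec chevE7 K (Sys.perm S K n s) := by
  obtain ⟨L, h, hh, rfl⟩ := Sys.exists_wN S K n
  rw [map_mul, Sys.perm_of_mem_hSub S K hh, mul_one, Sys.perm_wN]
  rw [hSub, Subgroup.mem_subgroupOf, Sys.diagonal_eq S] at hh
  obtain ⟨d, hd⟩ := hh
  rw [Subgroup.coe_mul, Units.val_mul, ← hd, ← Matrix.mulVec_mulVec, Sys.tor_val S, dg_hvec]
  induction L with
  | nil => simp [Sys.wN, Sys.wperm]
  | cons i L ih =>
    rw [Sys.wN_cons, Subgroup.coe_mul, Units.val_mul, ← Matrix.mulVec_mulVec, ih,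
      Sys.wperm_cons, Equiv.Perm.mul_apply, Sys.srefl_val]
    show (Sys.nG S K (chevE7.simple i) 1 : Matrix chevE7.Idx chevE7.Idx K) *ᵥ _ = _
    rw [Sys.nG_val]
    exact Sys.n_hvec S K i.isLt (Fin.isLt _)

/-- Monomial elements send root vectors to multiples of root vectors. -/
theorem monomial_bv (n : ↥(chevE7.monomialSubgroup K)) (s : Fin chevE7.nroots) :
    ∃ γ : K, γ ≠ 0 ∧ ((n : GL chevE7.Idx K) : Matrix chevE7.Idx chevE7.Idx K) *ᵥ
      bv chevE7 K (chevE7.rank + s) = γ • bv chevE7 K (chevE7.rank + (Sys.perm S K n s : ℕ)) := by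
  obtain ⟨σ, hσ⟩ := Sys.exists_mono S K n.2
  have hp : Sys.perm S K n = σ := Sys.perm_eq S K hσ
  rw [hp, bv_inr, bv_inr, Matrix.mulVec_single]
  obtain ⟨row, hrow⟩ := exists_col_ne_zero (n : GL chevE7.Idx K) (Sum.inr s)
  refine ⟨((n : GL chevE7.Idx K) : Matrix chevE7.Idx chevE7.Idx K) (Sum.inr (σ s)) (Sum.inr s), ?_,
    ?_⟩
  · rcases row with i | u
    · exact absurd (hσ.2.1 i s) hrow
    · rwa [← hσ.1 u s hrow]
  · funext x
    simp only [MulOpposite.op_one, one_smul, Matrix.col_apply, Pi.smul_apply, smul_eq_mul]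
    rcases x with i | u
    · rw [hσ.2.1 i s, Pi.single_eq_of_ne Sum.inl_ne_inr, mul_zero]
    · by_cases hu : u = σ s
      · subst hu; rw [Pi.single_eq_same, mul_one]
      · rw [Pi.single_eq_of_ne fun e => hu (Sum.inr.inj e), mul_zero]
        by_contra h
        exact hu (hσ.1 u s h)

/-- A monomial element fixing or negating the root. -/
theorem St.monomial {z : ℕ} (hz : z ∈ zs) (n : ↥(chevE7.monomialSubgroup K))
    (hn : (Sys.perm S K n ⟨z, (mem_zAll hz).2.2.1⟩ : ℕ) = z ∨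
      (Sys.perm S K n ⟨z, (mem_zAll hz).2.2.1⟩ : ℕ) = chevE7.neg z) :
    ∃ α β : K, α ≠ 0 ∧ β ≠ 0 ∧ St z ((n : GL chevE7.Idx K) : Matrix chevE7.Idx chevE7.Idx K)
      (if (Sys.perm S K n ⟨z, (mem_zAll hz).2.2.1⟩ : ℕ) = z then !![α, 0; 0, β]
        else !![0, β; α, 0]) := by
  obtain ⟨-, -, hz', hnz, hne, -⟩ := mem_zAll hz
  set z' : Fin chevE7.nroots := ⟨z, hz'⟩
  have hnn : chevE7.neg (chevE7.neg z) = z := (sysE7).wf.neg_neg z hz'
  have hneg : (Sys.perm S K n (Sys.negF S z') : ℕ) = chevE7.neg (Sys.perm S K n z' : ℕ) := by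
    rw [Sys.perm_negF S K n z', Sys.negF_val]
  have hh : hvec chevE7 K (Sys.perm S K n z' : ℕ) = hvec chevE7 K z := by
    rcases hn with h | h <;> rw [h]
    exact hvec_neg hz
  obtain ⟨α, hα, h0⟩ := monomial_bv n z'
  obtain ⟨β, hβ, h1⟩ := monomial_bv n (Sys.negF S z')
  rw [hneg] at h1
  refine ⟨α, β, hα, hβ, by rw [monomial_hvec n z', hh], fun q => ⟨0, ?_⟩⟩
  have e0 : ev' K z 0 = bv chevE7 K (chevE7.rank + (z' : ℕ)) := by simp [ev', rt, z']
  have e1 : ev' K z 1 = bv chevE7 K (chevE7.rank + ((Sys.negF S z' : Fin _) : ℕ)) := by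
    simp [ev', rt, z', Sys.negF_val]
  rcases hn with h | h
  · rw [if_pos h]
    rw [h] at h0 h1
    fin_cases q
    · show _ *ᵥ ev' K z 0 = _
      rw [e0, h0]
      simp [e0, z']
    · show _ *ᵥ ev' K z 1 = _
      rw [e1, h1]
      simp [ev', rt, Sys.negF_val, z']
  · rw [if_neg (by rw [h]; exact hne)]
    rw [h] at h0 h1
    fin_cases q
    · show _ *ᵥ ev' K z 0 = _
      rw [e0, h0]
      simp [ev', rt, z']
    · show _ *ᵥ ev' K z 1 = _
      rw [e1, h1, hnn]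
      simp [ev', rt, z']

/-- A two by two matrix of order dividing five over the field with eight elements is trivial. -/
theorem eq_one_of_pow_five {B : Matrix (Fin 2) (Fin 2) K} (h8 : ∀ i j, B i j ^ 8 = B i j)
    (h5 : B ^ 5 = 1) : B = 1 := by
  have h2 : (2 : K) = 0 := CharTwo.two_eq_zero
  have e : ∀ i j, (B ^ 5) i j = (1 : Matrix (Fin 2) (Fin 2) K) i j := fun i j => by rw [h5]
  have hdet : B.det ^ 5 = 1 := by rw [← Matrix.det_pow, h5, Matrix.det_one]
  have e00 := e 0 0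
  have e01 := e 0 1
  have e10 := e 1 0
  have e11 := e 1 1
  simp only [pow_succ, pow_zero, one_mul, Matrix.mul_apply, Fin.sum_univ_two, Matrix.one_apply,
    Fin.isValue, ↓reduceIte, one_ne_zero, zero_ne_one] at e00 e01 e10 e11
  rw [Matrix.det_fin_two] at hdet
  have ha := h8 0 0
  have hb := h8 0 1
  have hc := h8 1 0
  have hd := h8 1 1
  set a := B 0 0
  set b := B 0 1
  set c := B 1 0
  set d := B 1 1
  set δ := a * d - b * c with hδ
  have frob : ∀ x y : K, (x + y) ^ 8 = x ^ 8 + y ^ 8 := fun x y => by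
    rw [show (8 : ℕ) = 2 ^ 3 from rfl, add_pow_char_pow]
  have hδ8 : δ ^ 8 = δ := by
    rw [hδ, CharTwo.sub_eq_add, frob, mul_pow, mul_pow, ha, hb, hc, hd]
  have hδ0 : δ ≠ 0 := fun h => by rw [h] at hdet; simp at hdet
  have hδ7 : δ ^ 7 = 1 := mul_left_cancel₀ hδ0 (by rw [← pow_succ', hδ8, mul_one])
  have hδ1 : δ = 1 := by linear_combination (-δ * (δ ^ 7 + 1)) * hδ7 + (δ ^ 10 + δ ^ 5 + 1) * hdet
  set s := a + d with hs
  have hs8 : s ^ 8 = s := by rw [hs, frob, ha, hd]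
  -- the fifth power from the quadratic equation
  have k01 : (s ^ 4 + s ^ 2 + 1) * b = 0 := by
    rw [hs]
    rw [hδ] at hδ1
    linear_combination e01 + (3 * (a + d) ^ 2 * b - b * (a * d - b * c + 1)) * hδ1 +
      2 * (a + d) ^ 2 * b * h2
  have k10 : (s ^ 4 + s ^ 2 + 1) * c = 0 := by
    rw [hs]
    rw [hδ] at hδ1
    linear_combination e10 + (3 * (a + d) ^ 2 * c - c * (a * d - b * c + 1)) * hδ1 +
      2 * (a + d) ^ 2 * c * h2
  by_cases hp : s ^ 4 + s ^ 2 + 1 = 0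
  · exfalso
    have h1 : (s ^ 2 + s + 1) ^ 2 = 0 := by
      linear_combination hp + (s ^ 3 + s ^ 2 + s) * h2
    have h1' : s ^ 2 + s + 1 = 0 := pow_eq_zero_iff two_ne_zero |>.mp h1
    have h3 : s ^ 3 = 1 := by linear_combination (s - 1) * h1'
    have h4 : s ^ 8 = s ^ 2 := by
      linear_combination (s ^ 5 + s ^ 2) * h3
    have h5' : s ^ 2 = s := by rw [← h4, hs8]
    exact one_ne_zero (show (1 : K) = 0 by linear_combination h1' - h5' - s * h2)
  have hb0 : b = 0 := (mul_eq_zero.mp k01).resolve_left hp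
  have hc0 : c = 0 := (mul_eq_zero.mp k10).resolve_left hp
  have one5 : ∀ x : K, x ^ 8 = x → x ^ 5 = 1 → x = 1 := fun x hx hx5 => by
    have hx0 : x ≠ 0 := fun h => by rw [h] at hx5; simp at hx5
    have hx7 : x ^ 7 = 1 := mul_left_cancel₀ hx0 (by rw [← pow_succ', hx, mul_one])
    linear_combination (-x * (x ^ 7 + 1)) * hx7 + (x ^ 10 + x ^ 5 + 1) * hx5
  have ha1 : a = 1 := one5 a ha (by simp only [hb0, hc0] at e00; linear_combination e00)
  have hd1 : d = 1 := one5 d hd (by simp only [hb0, hc0] at e11; linear_combination e11)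
  ext i j
  fin_cases i <;> fin_cases j
  exacts [ha1, hb0, hc0, hd1]

end CfsgLib.E7Order65
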