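import Cfsg.Agent.ChevField.Map
import Cfsg.Agent.ChevTori.Regular
import Cfsg.Agent.Chevalley.Poincare
import Cfsg.Agent.E7Order65.Block

/-!
The centraliser of the torus element, and elements of order five in it that commute with the
twisted Frobenius map.
-/

set_option autoImplicit false

namespace CfsgLib.E7Order65

open Cfsg.Lie CfsgLib.Chevalley CfsgLib.ChevField
open scoped Matrix

local notation "S" => sysE7

variable {K : Type*} [Field K]

/-- The parameters of the torus element. -/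
noncomputable def cT (ζ : Kˣ) (j : ℕ) : Kˣ := ζ ^ mexp j

theorem torusVal_cT (ζ : Kˣ) (s : ℕ) : torusVal chevE7 (cT ζ) s = ζ ^ jsum s := by
  rw [torusVal, jsum, ← List.sum_toFinset _ List.nodup_range, List.toFinset_range]
  rw [show chevE7.rank = 7 from rfl]
  generalize Finset.range 7 = A
  induction A using Finset.induction_on with
  | empty => simp
  | insert j A hj ih =>
    rw [Finset.prod_insert hj, Finset.sum_insert hj, zpow_add, ih, cT, ← zpow_mul]

theorem jv_eq_iff {ζ : Kˣ} (hζ : orderOf ζ = 13) (a b : ℕ) :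
    torusVal chevE7 (cT ζ) a = torusVal chevE7 (cT ζ) b ↔ jv a = jv b := by
  rw [torusVal_cT, torusVal_cT, zpow_eq_zpow_iff_modEq, hζ, jv, jv, Int.ModEq]
  norm_num

theorem torusVal_eq_one_iff {ζ : Kˣ} (hζ : orderOf ζ = 13) (a : ℕ) :
    torusVal chevE7 (cT ζ) a = 1 ↔ jv a = 0 := by
  rw [torusVal_cT, ← orderOf_dvd_iff_zpow_eq_one, hζ, jv, Int.dvd_iff_emod_eq_zero]
  norm_num

theorem word_apply (s : Fin chevE7.nroots) : (Sys.wperm S word s : ℕ) = wp s := by
  simp only [word, Sys.wperm_cons, Equiv.Perm.mul_apply, Sys.srefl_val, wp, List.foldr]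
  simp [Sys.wperm]

variable [CharP K 2]

theorem wN_bv (L : List (Fin chevE7.rank)) (s : Fin chevE7.nroots) :
    ((Sys.wN S K L : GL chevE7.Idx K) : Matrix chevE7.Idx chevE7.Idx K) *ᵥ
      bv chevE7 K (chevE7.rank + s) = bv chevE7 K (chevE7.rank + (Sys.wperm S L s : ℕ)) := by
  induction L with
  | nil => simp [Sys.wN, Sys.wperm]
  | cons i L ih =>
    rw [Sys.wN_cons, Subgroup.coe_mul, Units.val_mul, ← Matrix.mulVec_mulVec, ih,
      Sys.wperm_cons, Equiv.Perm.mul_apply, Sys.srefl_val]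
    show (Sys.nG S K (chevE7.simple i) 1 : Matrix chevE7.Idx chevE7.Idx K) *ᵥ _ = _
    rw [Sys.nG_val, Sys.n_bv S K i.isLt (Fin.isLt _)]
    rcases (sysE7).eta_sign i i.isLt _ (Sys.wperm S L s).isLt with h | h <;>
      simp [h, CharTwo.neg_eq]

/-- Products of root elements at killed roots act triangularly. -/
theorem St.ordProd {z : ℕ} (hz : z ∈ zs) (a : ℕ → K)
    (ha : ∀ r, 63 ≤ r → r < 126 → a r = 0 ∨ r ∈ zs) :
    St z (Sys.ordProd S K a 63 : Matrix chevE7.Idx chevE7.Idx K) !![1, a z ^ 2; 0, 1] := by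
  have gen : ∀ l : List ℕ, (∀ r ∈ l, a r = 0 ∨ r ∈ zs) →
      St z (Sys.wG S K (l.map fun r => (r, a r)) : Matrix chevE7.Idx chevE7.Idx K)
        !![1, (l.map fun r => if r = z then a z ^ 2 else 0).sum; 0, 1] := by
    intro l
    induction l with
    | nil =>
      intro _
      simpa [Sys.wG, Matrix.one_fin_two] using St.one (K := K) z
    | cons r l ih =>
      intro h
      rw [List.forall_mem_cons] at h
      have h1 : St z (Sys.xG S K r (a r) : Matrix chevE7.Idx chevE7.Idx K)
          !![1, if r = z then a z ^ 2 else 0; 0, 1] := by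
        rcases h.1 with h0 | hr
        · rw [h0, Sys.xG_zero, Units.val_one]
          have : (if r = z then a z ^ 2 else 0) = 0 := by
            split_ifs with e
            · rw [← e, h0]; simp
            · rfl
          rw [this, ← Matrix.one_fin_two]
          exact St.one z
        · rw [Sys.xG_val]
          have := St.root hr hz (a r) (K := K)
          by_cases e : r = z
          · subst e; simpa using this
          · simpa [e] using this
      have := h1.mul (ih h.2)
      simp only [Sys.wG, List.map_cons, List.prod_cons, Units.val_mul, List.sum_cons] at this ⊢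
      convert this using 1
      ext i j
      fin_cases i <;> fin_cases j <;> simp [Matrix.mul_apply, Fin.sum_univ_two, add_comm]
  have h := gen (List.range' 63 63) fun r hr => by
    simp only [List.mem_range', one_mul] at hr
    obtain ⟨i, hi, rfl⟩ := hr
    exact ha _ (by omega) (by omega)
  have hsum : ((List.range' 63 63).map fun r => if r = z then a z ^ 2 else 0).sum = a z ^ 2 := by
    rw [← List.sum_toFinset _ List.nodup_range', Finset.sum_ite_eq', if_pos]
    obtain ⟨-, -, h2, -, -, h1⟩ := mem_zAll hz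
    rw [List.mem_toFinset, List.mem_range']
    exact ⟨z - 63, by change z < 126 at h2; omega, by omega⟩
  rw [hsum] at h
  exact h

theorem pairing_wperm (L : List (Fin chevE7.rank)) (r s : Fin chevE7.nroots) :
    chevE7.pairing (Sys.wperm S L r : ℕ) (Sys.wperm S L s : ℕ) = chevE7.pairing r s := by
  induction L with
  | nil => simp [Sys.wperm]
  | cons i L ih =>
    rw [Sys.wperm_cons, Equiv.Perm.mul_apply, Equiv.Perm.mul_apply, Sys.srefl_val, Sys.srefl_val,
      Sys.pairing_w S i.isLt (Fin.isLt _) (Fin.isLt _), ih]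

/-- Weyl elements keeping the functional fix or negate the killed roots. -/
theorem stab (L : List (Fin chevE7.rank))
    (h : ∀ s : Fin chevE7.nroots, jv (Sys.wperm S L s : ℕ) = jv s) :
    (∀ z : Fin chevE7.nroots, (z : ℕ) ∈ zs →
      (Sys.wperm S L z : ℕ) = z ∨ (Sys.wperm S L z : ℕ) = chevE7.neg z) ∧
    ((∀ z : Fin chevE7.nroots, (z : ℕ) ∈ zs → (Sys.wperm S L z : ℕ) = z) →
      Sys.wperm S L = 1) := by
  let sr : Fin 7 → Fin chevE7.nroots := fun m => Sys.simpleF S m
  let img : ℕ → List ℕ := fun k =>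
    (List.range k).map fun m => if hm : m < 7 then (Sys.wperm S L (sr ⟨m, hm⟩) : ℕ) else 0
  have hget : ∀ k m, m < k → (hm : m < 7) →
      (img k).getD m 0 = (Sys.wperm S L (sr ⟨m, hm⟩) : ℕ) := by
    intro k m hk hm
    simp [img, List.getD_eq_getElem?_getD, hk, hm]
  have mem : ∀ k ≤ 7, img k ∈ leaves k := by
    intro k
    induction k with
    | zero => intro _; simp [img, leaves]
    | succ k ih =>
      intro hk
      simp only [leaves, List.mem_flatMap, List.mem_map, List.mem_filter, List.mem_range,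
        decide_eq_true_eq, List.all_eq_true]
      refine ⟨img k, ih (by omega), (Sys.wperm S L (sr ⟨k, by omega⟩) : ℕ),
        ⟨⟨Fin.isLt _, h (sr ⟨k, by omega⟩)⟩, fun j hj => ?_⟩, ?_⟩
      · rw [hget k j hj (by omega)]
        exact ⟨pairing_wperm L _ _, pairing_wperm L _ _⟩
      · simp [img, List.range_succ, show k < 7 by omega]
  have hl := List.all_eq_true.1 leaves_ok _ (mem 7 le_rfl)
  simp only [Bool.and_eq_true, List.all_eq_true] at hl
  have hvec : ∀ (z : Fin chevE7.nroots) (j : ℕ), j < 7 →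
      vimg (img 7) z j = tabE7.coord 7 j (Sys.wperm S L z : ℕ) := by
    intro z j hj
    have e : tabE7.coord 7 j (Sys.wperm S L z : ℕ) = ∑ m : Fin 7,
        tabE7.coord 7 m z * tabE7.coord 7 j (Sys.wperm S L (sr m) : ℕ) :=
      Sys.vec_wperm S L z j hj
    rw [e, vimg, ← List.sum_toFinset _ List.nodup_range, List.toFinset_range, Finset.sum_range]
    exact Finset.sum_congr rfl fun m _ => by rw [hget 7 m m.isLt m.isLt]
  have hinj : ∀ (a b : Fin chevE7.nroots), (∀ j < 7, tabE7.coord 7 j a = tabE7.coord 7 j b) →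
      a = b := fun a b e => Fin.ext ((sysE7).vec_inj _ a.isLt _ b.isLt e)
  constructor
  · intro z hz
    have := hl.1 _ hz
    simp only [sameUp, Bool.or_eq_true, List.all_eq_true, List.mem_range, decide_eq_true_eq] at this
    rcases this with e | e
    · exact Or.inl (congrArg Fin.val (hinj _ z fun j hj => by rw [← hvec z j hj]; exact e j hj))
    · exact Or.inr ((congrArg Fin.val (hinj _ (Sys.negF S z) fun j hj => by
        rw [← hvec z j hj, Sys.negF_val]; exact e j hj)).trans (Sys.negF_val S z))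
  · intro hfix
    have := hl.2
    simp only [trivialIf, Bool.or_eq_true, Bool.not_eq_true', decide_eq_true_eq] at this
    rcases this with e | e
    · rw [Bool.eq_false_iff] at e
      refine absurd (List.all_eq_true.2 fun z hz => List.all_eq_true.2 fun j hj => ?_) e
      rw [List.mem_range] at hj
      obtain ⟨-, -, hz', -, -, -⟩ := mem_zAll hz
      rw [decide_eq_true_eq, hvec ⟨z, hz'⟩ j hj, hfix ⟨z, hz'⟩ hz]
    · refine (Sys.wperm_ext S (M := []) fun m => Fin.ext ?_).trans (by simp [Sys.wperm])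
      have h1 := congrArg (fun l : List ℕ => l.getD (m : ℕ) 0) e
      rw [hget 7 m m.isLt m.isLt] at h1
      simp only [List.getD_eq_getElem?_getD, List.getElem?_map,
        List.getElem?_range (show (m : ℕ) < 7 from m.isLt), Option.map_some, Option.getD_some] at h1
      rw [show Sys.wperm S [] = 1 by simp [Sys.wperm], Equiv.Perm.one_apply]
      exact h1

/-- The normal form of an element of the centraliser. -/
theorem exists_form {ζ : Kˣ} (hζ : orderOf ζ = 13) {Y : GL chevE7.Idx K}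
    (hY : Y ∈ chevE7.group K) (hcomm : tor chevE7 K (cT ζ) * Y = Y * tor chevE7 K (cT ζ)) :
    ∃ (a : ℕ → K) (d : ℕ → Kˣ) (n : ↥(chevE7.monomialSubgroup K)) (b : ℕ → K),
      (∀ r, 63 ≤ r → r < 126 → a r = 0 ∨ r ∈ zs) ∧ (∀ r, 63 ≤ r → r < 126 → b r = 0 ∨ r ∈ zs) ∧
      Sys.ordProd S K b 63 ∈ uSub chevE7 K (Sys.flipSet S K n) ∧
      (∀ s : Fin chevE7.nroots, jv (Sys.perm S K n s : ℕ) = jv s) ∧
      Y = Sys.ordProd S K a 63 * tor chevE7 K d * (n : GL chevE7.Idx K) * Sys.ordProd S K b 63 := by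
  obtain ⟨bb, hb, n, u, hu, rfl⟩ := Sys.normal_form_exists S K hY
  set t := tor chevE7 K (cT ζ) with ht
  have htd : t ∈ chevE7.diagonalSubgroup K := by rw [Sys.diagonal_eq S]; exact ⟨_, rfl⟩
  have hnt : (n : GL chevE7.Idx K) * t⁻¹ * (n : GL chevE7.Idx K)⁻¹ ∈ chevE7.diagonalSubgroup K :=
    (Subgroup.mem_normalizer_iff.mp (Sys.monomial_le_normalizer S K n.2) _).mp (inv_mem htd)
  have hneg : ∀ x ∈ uSub chevE7 K (Sys.flipSet S K n),
      (n : GL chevE7.Idx K) * x * (n : GL chevE7.Idx K)⁻¹ ∈ chevE7.negUnipotent K := by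
    intro x hx
    refine closure_conj_mem ?_ hx
    rintro y ⟨r, s, ⟨⟨hr, hr1⟩, -⟩, hy⟩
    obtain ⟨c', -, hct⟩ := Sys.conj_root S K n ⟨r, hr⟩
    rw [Sys.eq_xG S K hy,
      show Sys.xG S K r s = Sys.xG S K (⟨r, hr⟩ : Fin chevE7.nroots) s from rfl, (hct s).1]
    exact Sys.xG_mem_negUnipotent S K hr1 _
  have he : (t * bb * ((n : GL chevE7.Idx K) * t⁻¹ * (n : GL chevE7.Idx K)⁻¹)) * n * (t * u * t⁻¹) =
      bb * n * u := by
    calc _ = t * (bb * n * u) * t⁻¹ := by group
      _ = _ := by rw [hcomm]; group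
  have hbt : t * bb * ((n : GL chevE7.Idx K) * t⁻¹ * (n : GL chevE7.Idx K)⁻¹) ∈
      chevE7.borelSubgroup K :=
    mul_mem (mul_mem (Subgroup.mem_sup_right htd) hb) (Subgroup.mem_sup_right hnt)
  have hut : t * u * t⁻¹ ∈ uSub chevE7 K (Sys.flipSet S K n) := Sys.tor_conj_uSub S K _ hu
  obtain ⟨e1, e2⟩ := Sys.normal_form_unique S K hbt hb (hneg _ hut) (hneg _ hu) he
  obtain ⟨v, hv, d, rfl⟩ := (Sys.mem_borel S K).mp hb
  have hdd : tor chevE7 K d ∈ chevE7.diagonalSubgroup K := by
    rw [Sys.diagonal_eq S]; exact ⟨d, rfl⟩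
  have hvt : t * v * t⁻¹ ∈ chevE7.posUnipotent K := by
    rw [← uSub_univ] at hv ⊢
    exact Sys.tor_conj_uSub S K _ hv
  set k := t * tor chevE7 K d * ((n : GL chevE7.Idx K) * t⁻¹ * (n : GL chevE7.Idx K)⁻¹) with hk
  have hkd : k ∈ chevE7.diagonalSubgroup K := mul_mem (mul_mem htd hdd) hnt
  have e3 : (t * v * t⁻¹) * k = v * tor chevE7 K d := by rw [← e1, hk]; group
  have e4 : v⁻¹ * (t * v * t⁻¹) = tor chevE7 K d * k⁻¹ := by
    calc v⁻¹ * (t * v * t⁻¹) = v⁻¹ * ((t * v * t⁻¹) * k) * k⁻¹ := by group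
      _ = _ := by rw [e3]; group
  have hmem : v⁻¹ * (t * v * t⁻¹) ∈ chevE7.posUnipotent K ⊓ chevE7.diagonalSubgroup K :=
    Subgroup.mem_inf.2 ⟨mul_mem (inv_mem hv) hvt, by rw [e4]; exact mul_mem hdd (inv_mem hkd)⟩
  rw [Sys.posUnipotent_inf_diagonal S K, Subgroup.mem_bot] at hmem
  have e5 : (n : GL chevE7.Idx K) * t * (n : GL chevE7.Idx K)⁻¹ = t := by
    rw [hmem, eq_comm, mul_inv_eq_one, hk] at e4
    have e6 : t * tor chevE7 K d = tor chevE7 K d * t := Sys.diagonal_comm S K htd hdd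
    have e7 : tor chevE7 K d =
        tor chevE7 K d * (t * ((n : GL chevE7.Idx K) * t⁻¹ * (n : GL chevE7.Idx K)⁻¹)) := by
      rw [← mul_assoc, ← e6]; exact e4
    rw [left_eq_mul, mul_eq_one_iff_eq_inv] at e7
    calc (n : GL chevE7.Idx K) * t * (n : GL chevE7.Idx K)⁻¹
        = ((n : GL chevE7.Idx K) * t⁻¹ * (n : GL chevE7.Idx K)⁻¹)⁻¹ := by group
      _ = t := e7.symm
  have hjv : ∀ s : Fin chevE7.nroots, jv (Sys.perm S K n s : ℕ) = jv s := by
    intro r
    obtain ⟨c', hc', hct⟩ := Sys.conj_root S K n r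
    have h1 := Sys.tor_conj S K (cT ζ) (Sys.perm S K n r).isLt (c' * 1)
    rw [← (hct 1).1, ← ht] at h1
    have h2 : t * ((n : GL chevE7.Idx K) * Sys.xG S K r 1 * (n : GL chevE7.Idx K)⁻¹) * t⁻¹ =
        (n : GL chevE7.Idx K) * (t * Sys.xG S K r 1 * t⁻¹) * (n : GL chevE7.Idx K)⁻¹ := by
      calc _ = ((n : GL chevE7.Idx K) * t * (n : GL chevE7.Idx K)⁻¹) *
            ((n : GL chevE7.Idx K) * Sys.xG S K r 1 * (n : GL chevE7.Idx K)⁻¹) *
            ((n : GL chevE7.Idx K) * t * (n : GL chevE7.Idx K)⁻¹)⁻¹ := by rw [e5]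
        _ = _ := by group
    rw [h2, ht, Sys.tor_conj S K (cT ζ) r.isLt, (hct _).1] at h1
    have h3 := ChevTori.xG_inj' S (Sys.perm S K n r).isLt h1
    rw [← jv_eq_iff hζ]
    refine Units.ext (mul_left_cancel₀ hc' ?_)
    rw [mul_one] at h3
    rw [h3]; ring
  have fix : ∀ {P : Set ℕ}, (sysE7).Closed P → ∀ x ∈ uSub chevE7 K P, t * x * t⁻¹ = x →
      ∃ a : ℕ → K, (∀ r, 63 ≤ r → r < 126 → a r = 0 ∨ r ∈ zs) ∧ x = Sys.ordProd S K a 63 := by
    intro P hP x hx hfix
    obtain ⟨a, -, rfl⟩ := Sys.exists_ordProd_half S K hP hx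
    rw [ht, ChevTori.tor_conj_ordProd S] at hfix
    refine ⟨a, fun r h1 h2 => ?_, rfl⟩
    have h3 := Sys.ordProd_inj_half S K hfix (r := r) h1 h2
    by_cases h4 : a r = 0
    · exact Or.inl h4
    · refine Or.inr (jv_zero r h2 h1 ((torusVal_eq_one_iff hζ r).1 (Units.ext ?_)))
      exact mul_eq_right₀ h4 |>.1 h3
  obtain ⟨b', hb1, hb2⟩ := fix (Sys.closed_flipSet S K n) u hu e2
  obtain ⟨a, ha1, ha2⟩ := fix (Sys.closed_univ S) v (by rw [uSub_univ]; exact hv)
    (inv_mul_eq_one.1 hmem).symm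
  exact ⟨a, d, n, b', ha1, hb1, hb2 ▸ hu, hjv, by rw [← ha2, ← hb2]⟩

/-- An element of order dividing five, centralising the torus element and fixed by the twisted
Frobenius map, is trivial. -/
theorem eq_one_of_twisted {ζ : Kˣ} (hζ : orderOf ζ = 13) (σ : K →+* K) (hσ : ∀ x, σ x = x ^ 2)
    {Y : GL chevE7.Idx K} (hY : Y ∈ chevE7.group K)
    (hcomm : tor chevE7 K (cT ζ) * Y = Y * tor chevE7 K (cT ζ))
    (htw : (Sys.wN S K word : GL chevE7.Idx K) * gmap chevE7 σ Y =
      Y * (Sys.wN S K word : GL chevE7.Idx K))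
    (h5 : Y ^ 5 = 1) : Y = 1 := by
  obtain ⟨a, d, n, b, ha, hb, hbu, hjv, hYeq⟩ := exists_form hζ hY hcomm
  obtain ⟨L, hL⟩ := Sys.exists_wperm S K n
  have hst := stab L fun s => by rw [← hL]; exact hjv s
  rw [← hL] at hst
  set W : GL chevE7.Idx K := (Sys.wN S K word : GL chevE7.Idx K) with hW
  set A : Matrix chevE7.Idx chevE7.Idx K := (Y : Matrix chevE7.Idx chevE7.Idx K) with hA
  -- the pieces
  have hB : ∀ z ∈ zs, ∃ B, St z A B := by
    intro z hz
    obtain ⟨α, β, -, -, hM⟩ := St.monomial hz n (hst.1 ⟨z, (mem_zAll hz).2.2.1⟩ hz)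
    rw [hA, hYeq, Units.val_mul, Units.val_mul, Units.val_mul]
    exact ⟨_, (((St.ordProd hz a ha).mul (St.tor hz d)).mul hM).mul (St.ordProd hz b hb)⟩
  have hmap : ∀ z ∈ zs, ∀ z' ∈ zs, wp z = z' → wp (chevE7.neg z) = chevE7.neg z' →
      ∀ B B', St z A B → St z' A B' → ∀ p q, B' p q = B p q ^ 2 := by
    intro z hz z' hz' hw hwn B B' hB hB' p q
    have hrt : ∀ i, wp (rt z i) = rt z' i := fun i => by
      unfold rt
      split_ifs
      exacts [hw, hwn]
    have hWe : ∀ i, (W : Matrix chevE7.Idx chevE7.Idx K) *ᵥ ev' K z i = ev' K z' i := fun i => by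
      have := wN_bv (K := K) word ⟨rt z i, rt_lt hz i⟩
      rw [word_apply] at this
      show _ *ᵥ bv chevE7 K (chevE7.rank + rt z i) = bv chevE7 K (chevE7.rank + rt z' i)
      rw [← hrt i]
      exact this
    have hWh : (W : Matrix chevE7.Idx chevE7.Idx K) *ᵥ hvec chevE7 K z = hvec chevE7 K z' := by
      have := monomial_hvec (Sys.wN S K word) ⟨z, (mem_zAll hz).2.2.1⟩
      rw [Sys.perm_wN, word_apply] at this
      rw [← hw]
      exact this
    have hσe : ∀ i, (⇑σ ∘ ev' K z i : chevE7.Idx → K) = ev' K z i := fun i => by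
      funext row
      simp only [Function.comp_apply, ev', bv]
      split_ifs <;> simp
    have hσh : (⇑σ ∘ hvec chevE7 K z : chevE7.Idx → K) = hvec chevE7 K z := by
      funext row
      rcases row with i | u
      · simp [hvec_inl]
      · simp [hvec_inr]
    obtain ⟨c, hc⟩ := hB.2 q
    have h1 : (gmap chevE7 σ Y : Matrix chevE7.Idx chevE7.Idx K) *ᵥ ev' K z q =
        σ (B 0 q) • ev' K z 0 + σ (B 1 q) • ev' K z 1 + σ c • hvec chevE7 K z := by
      funext row
      have e := RingHom.map_mulVec σ A (ev' K z q) row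
      rw [hσe q, hc] at e
      change (A.map σ *ᵥ ev' K z q) row = _
      rw [← e]
      have g0 := congrFun (hσe 0) row
      have g1 := congrFun (hσe 1) row
      have g2 := congrFun hσh row
      simp only [Function.comp_apply] at g0 g1 g2
      simp only [Pi.add_apply, Pi.smul_apply, smul_eq_mul, map_add, map_mul, g0, g1, g2]
    have h2 : A *ᵥ ev' K z' q =
        σ (B 0 q) • ev' K z' 0 + σ (B 1 q) • ev' K z' 1 + σ c • hvec chevE7 K z' := by
      rw [← hWe q, Matrix.mulVec_mulVec, hA, ← Units.val_mul, ← htw, Units.val_mul,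
        ← Matrix.mulVec_mulVec, h1, Matrix.mulVec_add, Matrix.mulVec_add, Matrix.mulVec_smul,
        Matrix.mulVec_smul, Matrix.mulVec_smul, hWe, hWe, hWh]
    obtain ⟨c', hc'⟩ := hB'.2 q
    rw [h2] at hc'
    have e := congrFun hc' (Sum.inr ⟨rt z' p, rt_lt hz' p⟩)
    obtain ⟨-, -, -, -, hne, -⟩ := mem_zAll hz'
    have hne' : z' ≠ chevE7.neg z' := Ne.symm hne
    simp only [Pi.smul_apply, Pi.add_apply, ev', bv_inr_apply, hvec_inr, smul_eq_mul, mul_zero,
      add_zero] at e
    rw [← hσ]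
    fin_cases p <;> simpa [rt, hne, hne'] using e.symm
  have hone : ∀ z ∈ zs, ∀ B, St z A B → B = 1 := by
    obtain ⟨w1, w2, w3, w4, w5, w6⟩ := wp_zs
    obtain ⟨n1, n2, n3⟩ := neg_zs
    obtain ⟨B1, hB1⟩ := hB 91 (by simp [zs])
    obtain ⟨B2, hB2⟩ := hB 108 (by simp [zs])
    obtain ⟨B3, hB3⟩ := hB 111 (by simp [zs])
    have r12 := hmap 91 (by simp [zs]) 108 (by simp [zs]) w1 (by rw [n1, n2]; exact w4) B1 B2 hB1 hB2
    have r23 := hmap 108 (by simp [zs]) 111 (by simp [zs]) w2 (by rw [n2, n3]; exact w5) B2 B3 hB2 hB3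
    have r31 := hmap 111 (by simp [zs]) 91 (by simp [zs]) w3 (by rw [n3, n1]; exact w6) B3 B1 hB3 hB1
    intro z hz B hBz
    refine eq_one_of_pow_five (fun i j => ?_) ?_
    · simp only [zs, List.mem_cons, List.not_mem_nil, or_false] at hz
      rcases hz with rfl | rfl | rfl
      · rw [hBz.unique (by simp [zs]) hB1]
        conv_rhs => rw [r31 i j, r23 i j, r12 i j]
        ring
      · rw [hBz.unique (by simp [zs]) hB2]
        conv_rhs => rw [r12 i j, r31 i j, r23 i j]
        ring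
      · rw [hBz.unique (by simp [zs]) hB3]
        conv_rhs => rw [r23 i j, r12 i j, r31 i j]
        ring
    · have hp : ∀ k : ℕ, St z (A ^ k) (B ^ k) := fun k => by
        induction k with
        | zero => simpa using St.one (K := K) z
        | succ k ih => rw [pow_succ, pow_succ]; exact ih.mul hBz
      have h := hp 5
      rw [hA, ← Units.val_pow_eq_pow_val, h5, Units.val_one] at h
      exact h.unique hz (St.one z)
  -- the monomial part is trivial
  have hfixz : ∀ z : Fin chevE7.nroots, (z : ℕ) ∈ zs → (Sys.perm S K n z : ℕ) = z := by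
    intro z hz
    by_contra hne
    obtain ⟨α, β, hα, -, hM⟩ := St.monomial hz n (hst.1 z hz)
    rw [if_neg hne] at hM
    have h := (((St.ordProd hz a ha).mul (St.tor hz d)).mul hM).mul (St.ordProd hz b hb)
    rw [← Units.val_mul, ← Units.val_mul, ← Units.val_mul, ← hYeq, ← hA] at h
    have e' := congrFun (congrFun (hone z hz _ h) 1) 0
    simp [Matrix.mul_fin_two, hα, Units.ne_zero] at e'
  have hperm : Sys.perm S K n = 1 := by
    rw [hL] at hfixz ⊢
    exact (stab L fun s => by rw [← hL]; exact hjv s).2 hfixz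
  have hbb : Sys.ordProd S K b 63 = 1 := by
    have : uSub chevE7 K (Sys.flipSet S K n) = ⊥ := by
      refine uSub_empty_of fun r hr hpos => ?_
      obtain ⟨h, hr⟩ := hr
      rw [hperm, Equiv.Perm.one_apply] at hr
      have := ((sysE7).pos_iff r).mp hpos
      change r < _ at hr
      omega
    rw [this, Subgroup.mem_bot] at hbu
    exact hbu
  have hnd : (n : GL chevE7.Idx K) ∈ chevE7.diagonalSubgroup K := by
    have : n ∈ (Sys.perm S K).ker := hperm
    rwa [Sys.ker_perm S K] at this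
  rw [Sys.diagonal_eq S] at hnd
  obtain ⟨d', hd'⟩ := hnd
  rw [hbb, mul_one, ← hd', mul_assoc, ← map_mul] at hYeq
  set c := d * d' with hc
  have ha0 : ∀ r, 63 ≤ r → r < 126 → a r = 0 := by
    intro r h1 h2
    rcases ha r h1 h2 with h | hz
    · exact h
    · have h := (St.ordProd hz a ha).mul (St.tor hz c)
      rw [← Units.val_mul, ← hYeq, ← hA] at h
      have e' := congrFun (congrFun (hone r hz _ h) 0) 1
      simp [Matrix.mul_fin_two, Units.ne_zero] at e'
      exact e'
  have hv1 : Sys.ordProd S K a 63 = 1 := by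
    rw [Sys.ordProd_congr S K (u := 0) fun r h1 h2 => ha0 r h1 h2]
    refine List.prod_eq_one fun g hg => ?_
    simp only [List.map_map, List.mem_map, Function.comp_apply] at hg
    obtain ⟨r, -, rfl⟩ := hg
    exact Sys.xG_zero S K r
  rw [hv1, one_mul] at hYeq
  -- the torus part is trivial
  have hlam : ∀ s : Fin chevE7.nroots,
      torusVal chevE7 c (wp s) = torusVal chevE7 c s ^ 2 := by
    intro s
    refine Units.ext ?_
    rw [Units.val_pow_eq_pow_val, ← hσ]
    have hws : Sys.wperm S word s = (⟨wp s, (wp_facts s s.isLt).1⟩ : Fin chevE7.nroots) :=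
      Fin.ext (word_apply s)
    have hWe := wN_bv (K := K) word s
    rw [hws] at hWe
    have e := congrArg (fun X : GL chevE7.Idx K => ((X : Matrix chevE7.Idx chevE7.Idx K) *ᵥ
      bv chevE7 K (chevE7.rank + s)) (Sum.inr ⟨wp s, (wp_facts s s.isLt).1⟩)) htw
    simp only [Units.val_mul, ← Matrix.mulVec_mulVec] at e
    rw [hYeq, gmap_tor S, Sys.tor_val S, Sys.tor_val S] at e
    rw [dg_bve _ s.isLt, Matrix.mulVec_smul, hWe, dg_bve _ (wp_facts s s.isLt).1] at e
    simp only [Pi.smul_apply, smul_eq_mul, bv_inr_apply, if_pos, mul_one] at e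
    rw [← e]
    simp only [torusVal, Units.coe_prod, map_prod, Units.val_zpow_eq_zpow_val, map_zpow₀,
      Units.coe_map]
    rfl
  have hlam5 : ∀ s : Fin chevE7.nroots, torusVal chevE7 c s ^ 5 = 1 := by
    intro s
    refine Units.ext ?_
    have e := congrArg (fun X : GL chevE7.Idx K => ((X : Matrix chevE7.Idx chevE7.Idx K))) h5
    simp only [hYeq, Units.val_pow_eq_pow_val, Sys.tor_val S, dg, Matrix.diagonal_pow,
      Units.val_one] at e
    have e' := congrFun (congrFun e (Sum.inr s)) (Sum.inr s)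
    simp only [Matrix.diagonal_apply_eq, Pi.pow_apply, Sum.elim_inr, Matrix.one_apply_eq] at e'
    rw [Units.val_pow_eq_pow_val, Units.val_one]
    exact e'
  have hsimple : ∀ i < 7, torusVal chevE7 c (chevE7.simple i) = 1 := by
    intro i hi
    let P : (ℕ → ℤ) → Kˣ := fun v => ∏ j ∈ Finset.range 7, c j ^ v j
    have P_add : ∀ v w, P (v + w) = P v * P w := fun v w => by
      simp [P, zpow_add, Finset.prod_mul_distrib]
    have P_smul : ∀ (k : ℤ) v, P (k • v) = P v ^ k := fun k v => by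
      simp only [P, ← Finset.prod_zpow, ← zpow_mul]
      exact Finset.prod_congr rfl fun j _ => by simp [mul_comm]
    have P_sum : ∀ (f : ℕ → ℕ → ℤ) (s : Finset ℕ), P (∑ k ∈ s, f k) = ∏ k ∈ s, P (f k) := by
      intro f s
      induction s using Finset.induction_on with
      | empty => simp [P]
      | insert k s hk ih => rw [Finset.sum_insert hk, Finset.prod_insert hk, P_add, ih]
    have hT : ∀ s, torusVal chevE7 c s = P fun j => chevE7.cartan j s := fun s => rfl
    let v : ℕ → ℕ → ℤ := fun k => certC i k • ((fun j => chevE7.cartan j (wp (chevE7.simple k))) +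
      (-2 : ℤ) • fun j => chevE7.cartan j (chevE7.simple k)) +
      certE i k • ((5 : ℤ) • fun j => chevE7.cartan j (chevE7.simple k))
    have hv : ∀ j < 7, chevE7.cartan j (chevE7.simple i) = (∑ k ∈ Finset.range 7, v k) j := by
      intro j hj
      rw [cert_five i hi j hj, ← List.sum_toFinset _ List.nodup_range,
        ← List.sum_toFinset _ List.nodup_range, List.toFinset_range, ← Finset.sum_add_distrib,
        Finset.sum_apply]
      exact Finset.sum_congr rfl fun k _ => by simp [v]; ring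
    have : P (fun j => chevE7.cartan j (chevE7.simple i)) = P (∑ k ∈ Finset.range 7, v k) :=
      Finset.prod_congr rfl fun j hj => by rw [← hv j (Finset.mem_range.mp hj)]
    rw [hT, this, P_sum]
    refine Finset.prod_eq_one fun k hk => ?_
    have hk' : k < chevE7.rank := Finset.mem_range.mp hk
    have hs := (sysE7).wf.simple_lt k hk'
    have h1 := hlam ⟨_, hs⟩
    have h2 := hlam5 ⟨_, hs⟩
    simp only [hT] at h1 h2
    simp only [v, P_add, P_smul]
    rw [h1, ← zpow_natCast, ← zpow_add, show ((2 : ℕ) : ℤ) + -2 = 0 by norm_num, zpow_zero,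
      one_zpow, one_mul, show (5 : ℤ) = ((5 : ℕ) : ℤ) by norm_num, zpow_natCast, h2, one_zpow]
  rw [hYeq]
  exact Sys.tor_eq_one_of_simple S K c fun i hi => by rw [hsimple i hi, Units.val_one]

end CfsgLib.E7Order65
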