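import Cfsg.Agent.E7Order65.Cent
import Cfsg.Agent.ChevTori.Main
import Cfsg.Agent.S1064

/-!
The Chevalley group of type E7 over the field with two elements has no element of order 65.
-/

set_option autoImplicit false

namespace CfsgLib.E7Order65

open Cfsg.Lie CfsgLib.Chevalley CfsgLib.ChevField
open scoped Pointwise

local notation "S" => sysE7
local notation "F₂" => ZMod 2

theorem card_facts : ∃ k, Nat.card ↥(chevE7.group F₂) = 13 * k ∧ ¬ 13 ∣ k := by
  have h := Cfsg.Agent.S1064.result (F := F₂) (q := 2) (ZMod.card 2)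
  norm_num at h
  exact ⟨Nat.card ↥(chevE7.group F₂) / 13, by rw [h], by rw [h]; norm_num⟩

/-- Two elements of order thirteen: some conjugate of one is a power of the other. -/
theorem exists_conj_zpowers {x z : ↥(chevE7.group F₂)} (hx : orderOf x = 13) (hz : orderOf z = 13) :
    ∃ h : ↥(chevE7.group F₂), x ∈ Subgroup.zpowers (h * z * h⁻¹) := by
  haveI : Fact (Nat.Prime 13) := ⟨by norm_num⟩
  obtain ⟨k, hk, hk13⟩ := card_facts
  have mk : ∀ y : ↥(chevE7.group F₂), orderOf y = 13 →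
      ∃ P : Sylow 13 ↥(chevE7.group F₂), (P : Subgroup ↥(chevE7.group F₂)) = Subgroup.zpowers y := by
    intro y hy
    have hp : IsPGroup 13 ↥(Subgroup.zpowers y) :=
      IsPGroup.of_card (n := 1) (by rw [Nat.card_zpowers, hy, pow_one])
    obtain ⟨P, hP⟩ := hp.exists_le_sylow
    refine ⟨P, (Subgroup.eq_of_le_of_card_ge hP ?_).symm⟩
    obtain ⟨n, hn⟩ := IsPGroup.iff_card.mp P.2
    have hd : Nat.card ↥(P : Subgroup ↥(chevE7.group F₂)) ∣ 13 * k :=
      hk ▸ Subgroup.card_subgroup_dvd_card _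
    rw [hn] at hd
    rw [Nat.card_zpowers, hy, hn]
    refine le_of_le_of_eq (Nat.pow_le_pow_right (by norm_num) (?_ : n ≤ 1)) (pow_one _)
    by_contra h2
    have := (pow_dvd_pow 13 (show 2 ≤ n by omega)).trans hd
    rw [pow_two] at this
    exact hk13 (Nat.dvd_of_mul_dvd_mul_left (by norm_num) this)
  obtain ⟨P, hP⟩ := mk x hx
  obtain ⟨Q, hQ⟩ := mk z hz
  obtain ⟨h, hh⟩ := MulAction.exists_smul_eq ↥(chevE7.group F₂) Q P
  refine ⟨h, ?_⟩
  have hmem : x ∈ (P : Subgroup ↥(chevE7.group F₂)) := hP ▸ Subgroup.mem_zpowers x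
  rw [← hh, Sylow.smul_def] at hmem
  change x ∈ MulAut.conj h • (Q : Subgroup ↥(chevE7.group F₂)) at hmem
  rw [hQ] at hmem
  rw [Subgroup.mem_pointwise_smul_iff_inv_smul_mem, MulAut.smul_def, MulAut.conj_inv_apply] at hmem
  obtain ⟨m, hm⟩ := hmem
  refine ⟨m, ?_⟩
  show (h * z * h⁻¹) ^ m = x
  rw [conj_zpow, show z ^ m = h⁻¹ * x * h from hm]
  group

/-- The group has no element of order 65. -/
theorem no_order_65 (z : ↥(chevE7.group F₂)) : orderOf z ≠ 65 := by
  intro hz
  let K := AlgebraicClosure F₂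
  let f : F₂ →+* K := algebraMap F₂ K
  haveI : CharP K 2 := charP_of_injective_algebraMap (algebraMap F₂ K).injective 2
  obtain ⟨σ, hσ, hσfix⟩ := ChevTori.exists_frobenius F₂ K
  rw [ZMod.card] at hσ
  haveI : NeZero ((13 : ℕ) : K) := ⟨fun h => by
    have := (CharP.cast_eq_zero_iff K 2 13).1 h
    norm_num at this⟩
  obtain ⟨ζ0, hζ0⟩ := HasEnoughRootsOfUnity.exists_primitiveRoot K 13
  obtain ⟨ζ, rfl⟩ := hζ0.isUnit (by norm_num)
  have hζ : orderOf ζ = 13 := ((IsPrimitiveRoot.coe_units_iff.1 hζ0).eq_orderOf).symm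
  set W : GL chevE7.Idx K := (Sys.wN S K word : GL chevE7.Idx K) with hW
  set t := tor chevE7 K (cT ζ) with ht
  have htd : t ∈ chevE7.diagonalSubgroup K := by rw [Sys.diagonal_eq S]; exact ⟨_, rfl⟩
  obtain ⟨g, hg, hgy⟩ := ChevTori.exists_lang S (le_refl 2) σ hσ
    (Sys.monomial_le_group S K (Sys.wN S K word).2)
  have hgσ : gmap chevE7 σ g = g * W := by rw [hW, ← hgy]; group
  have hσt : gmap chevE7 σ t = t ^ 2 := by
    rw [ht, gmap_tor S, ← map_pow]
    congr 1
    funext j
    exact Units.ext (by simp [hσ])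
  have hWt : W * t ^ 2 * W⁻¹ = t := by
    have hm : W * t ^ 2 * W⁻¹ ∈ chevE7.diagonalSubgroup K :=
      (Subgroup.mem_normalizer_iff.mp (Sys.monomial_le_normalizer S K (Sys.wN S K word).2) _).mp
        (pow_mem htd 2)
    rw [Sys.diagonal_eq S] at hm
    obtain ⟨c', hc'⟩ := hm
    rw [← hc', ht]
    have key : ∀ s : Fin chevE7.nroots,
        torusVal chevE7 c' (wp s) = torusVal chevE7 (cT ζ) (wp s) := by
      intro s
      have hws : Sys.wperm S word s = (⟨wp s, (wp_facts s s.isLt).1⟩ : Fin chevE7.nroots) :=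
        Fin.ext (word_apply s)
      have hWe := wN_bv (K := K) word s
      rw [hws, ← hW] at hWe
      have e0 : tor chevE7 K c' * W = W * t ^ 2 := by rw [hc']; group
      have e := congrArg (fun X : GL chevE7.Idx K => Matrix.mulVec
        (X : Matrix chevE7.Idx chevE7.Idx K) (bv chevE7 K (chevE7.rank + s))
        (Sum.inr ⟨wp s, (wp_facts s s.isLt).1⟩)) e0
      simp only [Units.val_mul, ← Matrix.mulVec_mulVec] at e
      rw [ht, ← map_pow, Sys.tor_val S, Sys.tor_val S] at e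
      rw [dg_bve _ s.isLt, Matrix.mulVec_smul, hWe, dg_bve _ (show wp s < chevE7.nroots from (wp_facts s s.isLt).1)] at e
      simp only [Pi.smul_apply, smul_eq_mul, bv_inr_apply, if_pos, mul_one] at e
      have e' : torusVal chevE7 c' (wp s) = torusVal chevE7 (cT ζ ^ 2) s := Units.ext e
      have e2 : torusVal chevE7 (cT ζ ^ 2) (s : ℕ) = torusVal chevE7 (cT ζ) (s : ℕ) ^ 2 := by
        simp only [torusVal, Pi.pow_apply, ← Finset.prod_pow]
        refine Finset.prod_congr rfl fun j _ => ?_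
        rw [← zpow_natCast (cT ζ j) 2, ← zpow_natCast (cT ζ j ^ chevE7.cartan j s) 2, ← zpow_mul,
          ← zpow_mul, mul_comm]
      rw [e', e2, torusVal_cT, torusVal_cT, ← zpow_natCast, ← zpow_mul, zpow_eq_zpow_iff_modEq, hζ]
      have := (wp_facts s s.isLt).2
      simp only [jv] at this
      show jsum s * 2 % 13 = jsum (wp s) % 13
      omega
    refine Units.ext ?_
    rw [Sys.tor_val S, Sys.tor_val S]
    refine dg_congr fun s hs => congrArg Units.val ?_
    have := key ((Sys.wperm S word).symm ⟨s, hs⟩)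
    rw [← word_apply, Equiv.apply_symm_apply] at this
    exact this
  have hfixt : gmap chevE7 σ (g * t * g⁻¹) = g * t * g⁻¹ := by
    rw [map_mul, map_mul, map_inv, hσt, hgσ]
    conv_rhs => rw [← hWt]
    group
  obtain ⟨x, hx⟩ : ∃ x : ↥(chevE7.group F₂),
      gmap chevE7 f (x : GL chevE7.Idx F₂) = g * t * g⁻¹ := by
    obtain ⟨_, ⟨a0, ha0, rfl⟩, c, hc, _, ⟨b0, hb0, rfl⟩, e⟩ :=
      exists_fixed_decomp S f σ hσfix
        (mul_mem (mul_mem hg (Sys.diagonal_le_group S K htd)) (inv_mem hg)) hfixt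
    have hc1 : tor chevE7 K c = 1 := by
      refine Sys.tor_eq_one_of_simple S K c fun i hi => ?_
      obtain ⟨y, hy⟩ := hσfix _ (torusVal_fixed S σ c hc ((sysE7).wf.simple_lt i hi))
      rcases (by decide : ∀ y : F₂, y = 0 ∨ y = 1) y with rfl | rfl
      · rw [map_zero] at hy
        exact absurd hy.symm (Units.ne_zero _)
      · rw [← hy, map_one]
    exact ⟨⟨a0 * b0, mul_mem ha0 hb0⟩, by rw [e, hc1, mul_one]; exact map_mul _ _ _⟩
  have hot : orderOf t = 13 := by
    haveI : Fact (Nat.Prime 13) := ⟨by norm_num⟩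
    refine orderOf_eq_prime ?_ fun h1 => ?_
    · rw [ht, ← map_pow, ← map_one (tor chevE7 K)]
      congr 1
      funext j
      rw [Pi.pow_apply, cT, ← zpow_natCast, ← zpow_mul, Pi.one_apply,
        ← orderOf_dvd_iff_zpow_eq_one, hζ]
      exact dvd_mul_left _ _
    · refine jv_one ((torusVal_eq_one_iff hζ 93).1 ?_)
      have e := congrFun (congrFun (congrArg (fun X : GL chevE7.Idx K =>
        (X : Matrix chevE7.Idx chevE7.Idx K)) h1) (Sum.inr ⟨93, by decide⟩)) (Sum.inr ⟨93, by decide⟩)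
      simp only [ht, Sys.tor_val S, dg, Matrix.diagonal_apply_eq, Sum.elim_inr, Units.val_one,
        Matrix.one_apply_eq] at e
      exact Units.ext e
  have hox : orderOf x = 13 := by
    rw [← Subgroup.orderOf_coe, ← orderOf_injective (gmap chevE7 f) (gmap_injective f), hx,
      ← MulAut.conj_apply, MulEquiv.orderOf_eq, hot]
  have hz5 : orderOf (z ^ 5) = 13 := by rw [orderOf_pow' z (by norm_num), hz]; norm_num
  have hz13 : orderOf (z ^ 13) = 5 := by rw [orderOf_pow' z (by norm_num), hz]; norm_num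
  obtain ⟨h, hh⟩ := exists_conj_zpowers hox hz5
  set y := h * z ^ 13 * h⁻¹ with hy
  have hxy : x * y = y * x := by
    obtain ⟨m, hm⟩ := hh
    rw [← hm, hy]
    show (h * z ^ 5 * h⁻¹) ^ m * _ = _ * (h * z ^ 5 * h⁻¹) ^ m
    refine Commute.eq (Commute.zpow_left ?_ m)
    show h * z ^ 5 * h⁻¹ * (h * z ^ 13 * h⁻¹) = h * z ^ 13 * h⁻¹ * (h * z ^ 5 * h⁻¹)
    group
  have hoy : orderOf y = 5 := by
    rw [hy, ← MulAut.conj_apply, MulEquiv.orderOf_eq, hz13]
  set Y := g⁻¹ * gmap chevE7 f (y : GL chevE7.Idx F₂) * g with hY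
  have hcomm : t * Y = Y * t := by
    have e := congrArg (fun a : ↥(chevE7.group F₂) => gmap chevE7 f (a : GL chevE7.Idx F₂)) hxy
    simp only [Subgroup.coe_mul, map_mul, hx] at e
    calc t * Y = g⁻¹ * ((g * t * g⁻¹) * gmap chevE7 f (y : GL chevE7.Idx F₂)) * g := by
          rw [hY]; group
      _ = Y * t := by rw [e, hY]; group
  have htw : W * gmap chevE7 σ Y = Y * W := by
    have hfix : gmap chevE7 σ (gmap chevE7 f (y : GL chevE7.Idx F₂)) =
        gmap chevE7 f (y : GL chevE7.Idx F₂) := by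
      refine Units.ext (Matrix.ext fun i j => ?_)
      show σ (f _) = f _
      rw [hσ, ← map_pow]
      exact congrArg f ((by decide : ∀ a : F₂, a ^ 2 = a) _)
    rw [hY, map_mul, map_mul, map_inv, hfix, hgσ]
    group
  have hY5 : Y ^ 5 = 1 := by
    have e : (gmap chevE7 f (y : GL chevE7.Idx F₂)) ^ 5 = 1 := by
      rw [← map_pow, ← Subgroup.coe_pow, ← hoy, pow_orderOf_eq_one, Subgroup.coe_one, map_one]
    have := conj_pow (i := 5) (a := g⁻¹) (b := gmap chevE7 f (y : GL chevE7.Idx F₂))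
    rw [inv_inv, e, mul_one, inv_mul_cancel] at this
    exact this
  have hY1 : Y = 1 := eq_one_of_twisted hζ σ hσ
    (mul_mem (mul_mem (inv_mem hg) (gmap_mem S f y.2)) hg) hcomm htw hY5
  have e1 : y = 1 := by
    refine Subtype.ext (gmap_injective f ?_)
    rw [Subgroup.coe_one, map_one,
      show gmap chevE7 f (y : GL chevE7.Idx F₂) = g * Y * g⁻¹ by rw [hY]; group, hY1, mul_one,
      mul_inv_cancel]
  rw [e1, orderOf_one] at hoy
  norm_num at hoy

end CfsgLib.E7Order65
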