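import Cfsg.Agent.PrimeGraphPSL.SingerOrder
import Cfsg.Prelude.Def_Classical

/-!
Elements of order 65 in PSL₂(64), PSp₄(8), PSL₄(8), PSU₄(8) and PSp₆(8).
-/

set_option autoImplicit false

namespace CfsgLib.E7Order65

open scoped Matrix

/-- Coordinates over the field with two elements of a field with eight elements. -/
abbrev T3 : Type := ZMod 2 × ZMod 2 × ZMod 2

/-- Coordinates of a field with 64 elements over that with eight. -/
abbrev T6 : Type := T3 × T3

/-- The product of coordinates. -/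
def mul3 (x y : T3) : T3 :=
  let d3 := x.2.1 * y.2.2 + x.2.2 * y.2.1
  let d4 := x.2.2 * y.2.2
  (x.1 * y.1 + d3, x.1 * y.2.1 + x.2.1 * y.1 + d3 + d4,
    x.1 * y.2.2 + x.2.1 * y.2.1 + x.2.2 * y.1 + d4)

/-- The product of coordinates. -/
def mul6 (x y : T6) : T6 :=
  (mul3 x.1 y.1 + mul3 x.2 y.2, mul3 x.1 y.2 + mul3 x.2 y.1 + mul3 x.2 y.2)

/-- A number below eight as coordinates. -/
def of8 (n : ℕ) : T3 := ((n : ZMod 2), ((n / 2 : ℕ) : ZMod 2), ((n / 4 : ℕ) : ZMod 2))

/-- A number below 64 as coordinates. -/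
def of64 (n : ℕ) : T6 := (of8 n, of8 (n / 8))

/-- The value of coordinates. -/
def val3 {F : Type*} [Field F] (c : ZMod 2 →+* F) (a : F) (x : T3) : F :=
  c x.1 + c x.2.1 * a + c x.2.2 * a ^ 2

section

variable {F : Type*} [Field F] (c : ZMod 2 →+* F) {a : F}

theorem val3_add (x y : T3) : val3 c a (x + y) = val3 c a x + val3 c a y := by
  simp [val3]; ring

theorem val3_mul (ha : a ^ 3 + a + 1 = 0) (x y : T3) :
    val3 c a (mul3 x y) = val3 c a x * val3 c a y := by
  have h2 : (2 : F) = 0 := by rw [← map_ofNat c 2]; exact map_eq_zero c |>.mpr (by decide)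
  simp only [val3, mul3, map_add, map_mul]
  linear_combination (c x.2.1 * c y.2.2 + c x.2.2 * c y.2.1 + c x.2.2 * c y.2.2 * a) * (a + 1) * h2 -
    (c x.2.1 * c y.2.2 + c x.2.2 * c y.2.1 + c x.2.2 * c y.2.2 * a) * ha

/-- The value of coordinates. -/
def val6 (a w : F) (x : T6) : F := val3 c a x.1 + val3 c a x.2 * w

theorem val6_add (w : F) (x y : T6) : val6 c a w (x + y) = val6 c a w x + val6 c a w y := by
  simp only [val6, Prod.fst_add, Prod.snd_add, val3_add]; ring

theorem val6_mul (ha : a ^ 3 + a + 1 = 0) {w : F} (hw : w ^ 2 + w + 1 = 0) (x y : T6) :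
    val6 c a w (mul6 x y) = val6 c a w x * val6 c a w y := by
  have h2 : (2 : F) = 0 := by rw [← map_ofNat c 2]; exact map_eq_zero c |>.mpr (by decide)
  simp only [val6, mul6, val3_add, val3_mul c ha]
  linear_combination (val3 c a x.2 * val3 c a y.2) * (1 + w) * h2 -
    (val3 c a x.2 * val3 c a y.2) * hw

end

variable {T : Type*} [DecidableEq T] [AddCommMonoid T] (mul : T → T → T) (one : T)

/-- Matrices of coordinates, as lists of rows. -/
def mulL (n : ℕ) (A B : List (List T)) : List (List T) :=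
  (List.range n).map fun i => (List.range n).map fun j =>
    ((List.range n).map fun k => mul ((A.getD i []).getD k 0) ((B.getD k []).getD j 0)).sum

/-- The identity. -/
def oneL (n : ℕ) : List (List T) :=
  (List.range n).map fun i => (List.range n).map fun j => if i = j then one else 0

/-- Powers. -/
def powL (n : ℕ) (A : List (List T)) : ℕ → List (List T)
  | 0 => oneL one n
  | k + 1 => mulL mul n (powL n A k) A

variable {F : Type*} [Field F] (v : T → F) {n : ℕ}

/-- The matrix of values. -/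
def toM (n : ℕ) (A : List (List T)) : Matrix (Fin n) (Fin n) F :=
  Matrix.of fun i j => v ((A.getD i []).getD j 0)

theorem toM_oneL (h0 : v 0 = 0) (h1 : v one = 1) : toM v n (oneL one n) = 1 := by
  ext i j
  simp [toM, oneL, Matrix.one_apply, apply_ite v, h0, h1, Fin.ext_iff]

theorem toM_mulL (h0 : v 0 = 0) (hadd : ∀ x y, v (x + y) = v x + v y)
    (hmul : ∀ x y, v (mul x y) = v x * v y) (A B : List (List T)) :
    toM v n (mulL mul n A B) = toM v n A * toM v n B := by
  ext i j
  let φ : T →+ F := { toFun := v, map_zero' := h0, map_add' := hadd }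
  simp only [toM, mulL, Matrix.of_apply, Matrix.mul_apply]
  simp only [List.getD_eq_getElem?_getD, List.getElem?_map, List.getElem?_range, i.isLt, j.isLt,
    Option.map_some, Option.getD_some]
  rw [← List.sum_toFinset _ List.nodup_range, List.toFinset_range, Finset.sum_range,
    show v (∑ k : Fin n, mul ((A[(i : ℕ)]?.getD [])[(k : ℕ)]?.getD 0)
      ((B[(k : ℕ)]?.getD [])[(j : ℕ)]?.getD 0)) = _ from map_sum φ _ _]
  exact Finset.sum_congr rfl fun k _ => hmul _ _

theorem toM_powL (h0 : v 0 = 0) (h1 : v one = 1) (hadd : ∀ x y, v (x + y) = v x + v y)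
    (hmul : ∀ x y, v (mul x y) = v x * v y) (A : List (List T)) : ∀ k,
    toM v n (powL mul one n A k) = toM v n A ^ k := by
  intro k
  induction k with
  | zero => rw [powL, toM_oneL one v h0 h1, pow_zero]
  | succ k ih => rw [powL, toM_mulL mul v h0 hadd hmul, ih, pow_succ]

theorem toM_inj (hv : Function.Injective v) {A B : List (List T)}
    (h : (List.range n).any (fun i => (List.range n).any fun j =>
      decide ((A.getD i []).getD j 0 ≠ (B.getD i []).getD j 0)) = true) :
    toM v n A ≠ toM v n B := by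
  intro e
  simp only [List.any_eq_true, List.mem_range, decide_eq_true_eq] at h
  obtain ⟨i, hi, j, hj, hne⟩ := h
  exact hne (hv (congrFun (congrFun e ⟨i, hi⟩) ⟨j, hj⟩))

/-- Order 65 from powers. -/
theorem orderOf_eq_65 {G : Type*} [Monoid G] {x : G} (h : x ^ 65 = 1) (h5 : x ^ 5 ≠ 1)
    (h13 : x ^ 13 ≠ 1) : orderOf x = 65 := by
  have hd := orderOf_dvd_of_pow_eq_one h
  have : orderOf x ∈ Nat.divisors 65 := Nat.mem_divisors.2 ⟨hd, by norm_num⟩
  rw [show Nat.divisors 65 = {1, 5, 13, 65} by decide] at this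
  simp only [Finset.mem_insert, Finset.mem_singleton] at this
  rcases this with e | e | e | e
  · exact absurd (by rw [orderOf_eq_one_iff.1 e, one_pow]) h5
  · exact absurd (e ▸ pow_orderOf_eq_one x) h5
  · exact absurd (e ▸ pow_orderOf_eq_one x) h13
  · exact e

/-- An element of order 65 modulo the centre, from a non-commuting element. -/
theorem orderOf_mk_eq_65 {G : Type*} [Group G] {x y : G} (h : x ^ 65 = 1)
    (h5 : x ^ 5 * y ≠ y * x ^ 5) (h13 : x ^ 13 * y ≠ y * x ^ 13) :
    orderOf (QuotientGroup.mk (s := Subgroup.center G) x) = 65 := by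
  have key : ∀ k, x ^ k * y ≠ y * x ^ k →
      (QuotientGroup.mk (s := Subgroup.center G) x) ^ k ≠ 1 := fun k hk e => by
    rw [← QuotientGroup.mk_pow, QuotientGroup.eq_one_iff, Subgroup.mem_center_iff] at e
    exact hk (e y).symm
  exact orderOf_eq_65 (by rw [← QuotientGroup.mk_pow, h, QuotientGroup.mk_one]) (key 5 h5)
    (key 13 h13)

/-! ### Concrete data -/

/-- Rows. -/
def rows8 (A : List (List ℕ)) : List (List T3) := A.map (List.map of8)

/-- Rows. -/
def rows64 (A : List (List ℕ)) : List (List T6) := A.map (List.map of64)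

/-- The symplectic matrix in dimension four. -/
def m4 : List (List T3) := rows8 [[2, 7, 5, 3], [5, 3, 0, 3], [3, 6, 3, 3], [1, 7, 6, 0]]

/-- A symplectic transvection in dimension four. -/
def t4 : List (List T3) := rows8 [[1, 6, 1, 5], [0, 2, 5, 7], [0, 0, 1, 0], [0, 2, 6, 2]]

/-- The symplectic matrix in dimension six. -/
def m6 : List (List T3) := rows8 [[2, 7, 0, 5, 3, 0], [5, 3, 0, 0, 3, 0], [0, 0, 1, 0, 0, 0],
  [3, 6, 0, 3, 3, 0], [1, 7, 0, 6, 0, 0], [0, 0, 0, 0, 0, 1]]

/-- A symplectic transvection in dimension six. -/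
def t6 : List (List T3) := rows8 [[1, 6, 0, 1, 5, 0], [0, 2, 0, 5, 7, 0], [0, 0, 1, 0, 0, 0],
  [0, 0, 0, 1, 0, 0], [0, 2, 0, 6, 2, 0], [0, 0, 0, 0, 0, 1]]

/-- The unitary matrix. -/
def mu : List (List T6) :=
  rows64 [[12, 34, 22, 21], [28, 31, 17, 36], [20, 23, 13, 38], [19, 32, 31, 28]]

/-- A unitary transvection. -/
def tu : List (List T6) :=
  rows64 [[0, 51, 1, 53], [53, 7, 53, 21], [1, 51, 0, 53], [51, 23, 51, 7]]

/-- The alternating form. -/
def formL (m : ℕ) : List (List T3) :=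
  (List.range (2 * m)).map fun i => (List.range (2 * m)).map fun j =>
    if i + m = j ∨ j + m = i then (1, 0, 0) else 0

/-- The transpose. -/
def trL {T' : Type*} [Zero T'] (n : ℕ) (A : List (List T')) : List (List T') :=
  (List.range n).map fun i => (List.range n).map fun j => (A.getD j []).getD i 0

/-- The conjugation of coordinates. -/
def conj6 (x : T6) : T6 := (x.1 + x.2, x.2)

/-- The checks on the symplectic pairs. -/
def spChecks (m : ℕ) (A B : List (List T3)) : Bool :=
  let one : T3 := (1, 0, 0)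
  decide (mulL mul3 (2 * m) (mulL mul3 (2 * m) A (formL m)) (trL (2 * m) A) = formL m) &&
  decide (mulL mul3 (2 * m) (mulL mul3 (2 * m) B (formL m)) (trL (2 * m) B) = formL m) &&
  decide (powL mul3 one (2 * m) A 65 = oneL one (2 * m)) &&
  [5, 13].all fun k => (List.range (2 * m)).any fun i => (List.range (2 * m)).any fun j =>
    decide ((((mulL mul3 (2 * m) (powL mul3 one (2 * m) A k) B).getD i []).getD j 0) ≠
      (((mulL mul3 (2 * m) B (powL mul3 one (2 * m) A k)).getD i []).getD j 0))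

theorem sp_four : spChecks 2 m4 t4 = true := by decide +kernel

theorem sp_six : spChecks 3 m6 t6 = true := by decide +kernel

/-- The checks on the unitary pair. -/
def suChecks : Bool :=
  let one : T6 := ((1, 0, 0), 0)
  decide (mulL mul6 4 (trL 4 mu) (mu.map (List.map conj6)) = oneL one 4) &&
  decide (mulL mul6 4 (trL 4 tu) (tu.map (List.map conj6)) = oneL one 4) &&
  decide (powL mul6 one 4 mu 65 = oneL one 4) &&
  decide (powL mul6 one 4 tu 2 = oneL one 4) &&
  [5, 13].all fun k => (List.range 4).any fun i => (List.range 4).any fun j =>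
    decide ((((mulL mul6 4 (powL mul6 one 4 mu k) tu).getD i []).getD j 0) ≠
      (((mulL mul6 4 tu (powL mul6 one 4 mu k)).getD i []).getD j 0))

theorem su_four : suChecks = true := by decide +kernel

theorem inv3 : ∀ x : T3, x ≠ 0 → ∃ y : T3, mul3 x y = (1, 0, 0) := by decide +kernel

theorem inv6 : ∀ x : T6, x ≠ 0 → ∃ y : T6, mul6 x y = ((1, 0, 0), 0) := by decide +kernel

theorem sub3 : ∀ x y : T3, x + y = 0 → x = y := by decide +kernel

theorem conj6_mul : ∀ x : T6, mul6 (mul6 (mul6 x x) (mul6 x x)) (mul6 (mul6 x x) (mul6 x x)) =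
    conj6 x := by decide +kernel

/-! ### The groups -/

/-- Injectivity of the values. -/
theorem inj_of_inv {T' : Type*} [AddCommMonoid T'] (mul' : T' → T' → T') (one' : T') (v' : T' → F)
    (h1 : v' one' = 1) (hadd : ∀ x y, v' (x + y) = v' x + v' y)
    (hmul : ∀ x y, v' (mul' x y) = v' x * v' y) (hchar : ∀ y : F, y + y = 0)
    (hinv : ∀ x, x ≠ 0 → ∃ y, mul' x y = one') (hsub : ∀ x y : T', x + y = 0 → x = y) :
    Function.Injective v' := by
  intro x y e
  refine hsub x y (by_contra fun h => ?_)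
  obtain ⟨z, hz⟩ := hinv _ h
  have := congrArg v' hz
  rw [hmul, hadd, e, hchar, zero_mul, h1] at this
  exact zero_ne_one this

theorem exists_hom [Fintype F] {k : ℕ} (hk : k ≠ 0) (h : Fintype.card F = 2 ^ k) :
    CharP F 2 ∧ ∃ _c : ZMod 2 →+* F, True := by
  haveI : CharP F 2 := charP_of_card_eq_prime_pow (p := 2) (f := k) (by simpa using h)
  exact ⟨this, ZMod.castHom dvd_rfl F, trivial⟩

theorem exists_cubic [Fintype F] [CharP F 2] (h : 7 ∣ Fintype.card F - 1) :
    ∃ a : F, a ^ 3 + a + 1 = 0 := by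
  classical
  haveI : Fact (Nat.Prime 7) := ⟨by norm_num⟩
  obtain ⟨u, hu⟩ := exists_prime_orderOf_dvd_card (G := Fˣ) 7 (by rw [Fintype.card_units]; exact h)
  have h7 : ((u : F)) ^ 7 = 1 := by
    rw [← Units.val_pow_eq_pow_val, ← hu, pow_orderOf_eq_one, Units.val_one]
  have hne : (u : F) - 1 ≠ 0 := fun e => by
    have : u = 1 := Units.ext (sub_eq_zero.1 e)
    rw [this, orderOf_one] at hu
    norm_num at hu
  have h2 : (2 : F) = 0 := CharTwo.two_eq_zero
  have e : ((u : F) ^ 3 + u + 1) * ((u : F) ^ 3 + (u : F) ^ 2 + 1) = 0 := by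
    refine (mul_eq_zero.1 (show ((u : F) - 1) *
      (((u : F) ^ 3 + u + 1) * ((u : F) ^ 3 + (u : F) ^ 2 + 1)) = 0 from ?_)).resolve_left hne
    linear_combination h7 + ((u : F) ^ 4 - (u : F) ^ 3) * h2
  rcases mul_eq_zero.1 e with e | e
  · exact ⟨u, e⟩
  · refine ⟨((u : F))⁻¹, ?_⟩
    field_simp
    linear_combination e

/-- The symplectic groups over the field with eight elements. -/
theorem exists_65_psp {F8 : Type*} [Field F8] [Fintype F8] (h8 : Fintype.card F8 = 8) (m : ℕ)
    (A B : List (List T3)) (hchk : spChecks m A B = true) :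
    ∃ x : Cfsg.PSp m F8, orderOf x = 65 := by
  classical
  obtain ⟨hc, c, -⟩ := exists_hom (F := F8) (k := 3) (by norm_num) (by rw [h8]; norm_num)
  obtain ⟨a, ha⟩ := exists_cubic (F := F8) (by rw [h8])
  set v := val3 c a with hv
  have h0 : v 0 = 0 := by simp [hv, val3]
  have h1 : v (1, 0, 0) = 1 := by simp [hv, val3]
  have hadd := val3_add c (a := a)
  have hmul := val3_mul c ha
  have hinj : Function.Injective v := inj_of_inv mul3 _ v h1 hadd hmul
    (fun y => CharTwo.add_self_eq_zero y) inv3 sub3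
  simp only [spChecks, Bool.and_eq_true, decide_eq_true_eq, List.all_eq_true] at hchk
  obtain ⟨⟨⟨hA, hB⟩, hp⟩, hne⟩ := hchk
  set e : Fin (2 * m) ≃ Fin m ⊕ Fin m := (finCongr (two_mul m)).trans finSumFinEquiv.symm with he
  let R : Matrix (Fin (2 * m)) (Fin (2 * m)) F8 ≃* Matrix (Fin m ⊕ Fin m) (Fin m ⊕ Fin m) F8 :=
    { Matrix.reindex e e with
      map_mul' := fun X Y => by simp [Matrix.submatrix_mul_equiv] }
  have hRt : ∀ X, R Xᵀ = (R X)ᵀ := fun X => rfl
  have hidx : ∀ i : Fin (2 * m),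
      e i = if h : (i : ℕ) < m then Sum.inl ⟨i, h⟩ else Sum.inr ⟨(i : ℕ) - m, by omega⟩ := by
    intro i
    rw [he, Equiv.trans_apply, Equiv.symm_apply_eq]
    split_ifs with h
    · exact Fin.ext (by simp)
    · exact Fin.ext (by simp; omega)
  have hJ : R (toM v (2 * m) (formL m)) = Matrix.J (Fin m) F8 := by
    ext i j
    obtain ⟨i, rfl⟩ := e.surjective i
    obtain ⟨j, rfl⟩ := e.surjective j
    show toM v (2 * m) (formL m) (e.symm (e i)) (e.symm (e j)) = _
    rw [Equiv.symm_apply_apply, Equiv.symm_apply_apply]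
    simp only [toM, formL, Matrix.of_apply, List.getD_eq_getElem?_getD, List.getElem?_map,
      List.getElem?_range, i.isLt, j.isLt, Option.map_some, Option.getD_some, apply_ite v, h0, h1]
    rw [hidx i, hidx j, Matrix.J]
    by_cases hi : (i : ℕ) < m <;> by_cases hj : (j : ℕ) < m <;>
      simp only [hi, hj, dite_true, dite_false, Matrix.fromBlocks_apply₁₁,
        Matrix.fromBlocks_apply₁₂, Matrix.fromBlocks_apply₂₁, Matrix.fromBlocks_apply₂₂,
        Matrix.zero_apply, Matrix.neg_apply, Matrix.one_apply, CharTwo.neg_eq, Fin.ext_iff] <;>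
      split_ifs <;> first | rfl | omega
  have htr : ∀ X, toM v (2 * m) (trL (2 * m) X) = (toM v (2 * m) X)ᵀ := fun X => by
    ext i j
    simp [toM, trL]
  have hmem : ∀ X, mulL mul3 (2 * m) (mulL mul3 (2 * m) X (formL m)) (trL (2 * m) X) = formL m →
      R (toM v (2 * m) X) ∈ Matrix.symplecticGroup (Fin m) F8 := fun X hX => by
    rw [SymplecticGroup.mem_iff, ← hJ, ← hRt, ← map_mul, ← map_mul, ← htr,
      ← toM_mulL mul3 v h0 hadd hmul, ← toM_mulL mul3 v h0 hadd hmul, hX]
  let x : ↥(Matrix.symplecticGroup (Fin m) F8) := ⟨_, hmem A hA⟩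
  let y : ↥(Matrix.symplecticGroup (Fin m) F8) := ⟨_, hmem B hB⟩
  have hpow : ∀ k : ℕ, ((x ^ k : ↥(Matrix.symplecticGroup (Fin m) F8)) :
      Matrix (Fin m ⊕ Fin m) (Fin m ⊕ Fin m) F8) =
        R (toM v (2 * m) (powL mul3 (1, 0, 0) (2 * m) A k)) := fun k => by
    rw [toM_powL mul3 _ v h0 h1 hadd hmul, map_pow]
    rfl
  refine ⟨QuotientGroup.mk x, orderOf_mk_eq_65 (y := y) ?_ ?_ ?_⟩
  · refine Subtype.ext ?_
    rw [hpow, hp, toM_oneL _ v h0 h1, map_one]
    rfl
  all_goals
    intro e'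
    have e'' := congrArg Subtype.val e'
    simp only [Submonoid.coe_mul] at e''
    rw [hpow, show (y : Matrix (Fin m ⊕ Fin m) (Fin m ⊕ Fin m) F8) = R (toM v (2 * m) B) from rfl,
      ← map_mul, ← map_mul, ← toM_mulL mul3 v h0 hadd hmul, ← toM_mulL mul3 v h0 hadd hmul] at e''
    exact toM_inj v hinj (hne _ (by simp)) (R.injective e'')

/-- The unitary group. -/
theorem exists_65_psu {F64 : Type*} [Field F64] [Fintype F64] (h64 : Fintype.card F64 = 64) :
    ∃ x : Cfsg.PSU 4 F64 8, orderOf x = 65 := by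
  classical
  obtain ⟨hc, c, -⟩ := exists_hom (F := F64) (k := 6) (by norm_num) (by rw [h64]; norm_num)
  obtain ⟨a, ha⟩ := exists_cubic (F := F64) (by rw [h64]; norm_num)
  haveI : Fact (Nat.Prime 3) := ⟨by norm_num⟩
  obtain ⟨u, hu⟩ := exists_prime_orderOf_dvd_card (G := F64ˣ) 3
    (by rw [Fintype.card_units, h64]; norm_num)
  have hw : (u : F64) ^ 2 + (u : F64) + 1 = 0 := by
    have h3 : (u : F64) ^ 3 = 1 := by
      rw [← Units.val_pow_eq_pow_val, ← hu, pow_orderOf_eq_one, Units.val_one]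
    refine (mul_eq_zero.1 (show ((u : F64) - 1) * _ = 0 by linear_combination h3)).resolve_left
      fun e => ?_
    rw [Units.ext (sub_eq_zero.1 e) (u := u) (v := 1), orderOf_one] at hu
    norm_num at hu
  set v := val6 c a (u : F64) with hv
  have h0 : v 0 = 0 := by simp [hv, val6, val3]
  have h1 : v ((1, 0, 0), 0) = 1 := by simp [hv, val6, val3]
  have hadd := val6_add c (a := a) (u : F64)
  have hmul := val6_mul c ha hw
  have hinj : Function.Injective v := inj_of_inv mul6 _ v h1 hadd hmul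
    (fun y => CharTwo.add_self_eq_zero y) inv6
    (fun x y e => Prod.ext (sub3 _ _ (congrArg Prod.fst e)) (sub3 _ _ (congrArg Prod.snd e)))
  have hconj : ∀ x, v (conj6 x) = v x ^ 8 := fun x => by
    simp only [← conj6_mul, hv, hmul]; ring
  have hchk := su_four
  simp only [suChecks, Bool.and_eq_true, decide_eq_true_eq, List.all_eq_true] at hchk
  obtain ⟨⟨⟨⟨hA, hB⟩, hp⟩, hp2⟩, hne⟩ := hchk
  have hform : ∀ X, mulL mul6 4 (trL 4 X) (X.map (List.map conj6)) = oneL ((1, 0, 0), 0) 4 →
      ∀ p q, ∑ i, toM v 4 X i p * toM v 4 X i q ^ 8 = if p = q then 1 else 0 := by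
    intro X hX p q
    have e := congrFun (congrFun (congrArg (toM v 4) hX) p) q
    rw [toM_mulL mul6 v h0 hadd hmul, toM_oneL _ v h0 h1, Matrix.mul_apply, Matrix.one_apply] at e
    refine Eq.trans (Finset.sum_congr rfl fun i _ => ?_) e
    have c0 : conj6 0 = 0 := rfl
    congr 1
    · simp [toM, trL]
    · simp only [toM, Matrix.of_apply, ← hconj]
      congr 1
      simp only [List.getD_eq_getElem?_getD, List.getElem?_map]
      cases X[(i : ℕ)]? with
      | none => simp [c0]
      | some r => cases hq : r[(q : ℕ)]? <;> simp [hq, c0]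
  have hdet : ∀ X k, mulL mul6 4 (trL 4 X) (X.map (List.map conj6)) = oneL ((1, 0, 0), 0) 4 →
      powL mul6 ((1, 0, 0), 0) 4 X k = oneL ((1, 0, 0), 0) 4 → Nat.Coprime k 9 →
      (toM v 4 X).det = 1 := by
    intro X k hX hk hco
    have d1 : (toM v 4 X).det ^ k = 1 := by
      rw [← Matrix.det_pow, ← toM_powL mul6 _ v h0 h1 hadd hmul, hk, toM_oneL _ v h0 h1,
        Matrix.det_one]
    have d9 : (toM v 4 X).det ^ 9 = 1 := by
      let φ : F64 →+* F64 := iterateFrobenius F64 2 3
      have e : (toM v 4 X)ᵀ * (toM v 4 X).map φ = 1 := by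
        ext p q
        rw [Matrix.mul_apply, Matrix.one_apply, ← hform X hX p q]
        exact Finset.sum_congr rfl fun i _ => by simp [φ, iterateFrobenius_def]
      have := congrArg Matrix.det e
      rw [Matrix.det_mul, Matrix.det_transpose, Matrix.det_one,
        show (toM v 4 X).map φ = φ.mapMatrix (toM v 4 X) from rfl, ← RingHom.map_det] at this
      rw [← this]
      simp [φ, iterateFrobenius_def]
      ring
    exact eq_one_of_pow_eq_one_of_coprime_aux d1 d9 hco
  let sA : Matrix.SpecialLinearGroup (Fin 4) F64 := ⟨_, hdet mu 65 hA hp (by norm_num)⟩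
  let sB : Matrix.SpecialLinearGroup (Fin 4) F64 := ⟨_, hdet tu 2 hB hp2 (by norm_num)⟩
  have hmem : ∀ (X : List (List T6)) (s : Matrix.SpecialLinearGroup (Fin 4) F64),
      (s : Matrix (Fin 4) (Fin 4) F64) = toM v 4 X →
      mulL mul6 4 (trL 4 X) (X.map (List.map conj6)) = oneL ((1, 0, 0), 0) 4 →
      s ∈ Cfsg.SU 4 F64 8 := by
    intro X s hs hX
    show ∀ p q, Cfsg.hermForm 4 F64 8 _ _ = Cfsg.hermForm 4 F64 8 p q
    intro p q
    show ∑ i, ((s : Matrix (Fin 4) (Fin 4) F64) *ᵥ p) i *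
      ((s : Matrix (Fin 4) (Fin 4) F64) *ᵥ q) i ^ 8 = _
    rw [hs]
    let φ : F64 →+* F64 := iterateFrobenius F64 2 3
    have hφ : ∀ y : F64, y ^ 8 = φ y := fun y => by simp [φ, iterateFrobenius_def]
    simp only [Cfsg.hermForm, Matrix.mulVec, dotProduct, hφ, map_sum, map_mul]
    simp only [Finset.sum_mul_sum]
    rw [Finset.sum_comm]
    simp only [Finset.sum_comm (s := (Finset.univ : Finset (Fin 4))) (t := Finset.univ)
      (f := fun i b => (toM v 4 X i _ * p _) * (φ (toM v 4 X i b) * φ (q b)))]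
    refine Finset.sum_congr rfl fun k _ => ?_
    rw [Finset.sum_eq_single k]
    · calc _ = (∑ i, toM v 4 X i k * toM v 4 X i k ^ 8) * (p k * φ (q k)) := by
            rw [Finset.sum_mul]
            exact Finset.sum_congr rfl fun i _ => by rw [hφ]; ring
        _ = _ := by rw [hform X hX, if_pos rfl, one_mul]
    · intro l _ hl
      calc _ = (∑ i, toM v 4 X i k * toM v 4 X i l ^ 8) * (p k * φ (q l)) := by
            rw [Finset.sum_mul]
            exact Finset.sum_congr rfl fun i _ => by rw [hφ]; ring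
        _ = _ := by rw [hform X hX, if_neg (Ne.symm hl), zero_mul]
    · simp
  let x : ↥(Cfsg.SU 4 F64 8) := ⟨sA, hmem mu sA rfl hA⟩
  let y : ↥(Cfsg.SU 4 F64 8) := ⟨sB, hmem tu sB rfl hB⟩
  have hpow : ∀ k : ℕ, (((x ^ k : ↥(Cfsg.SU 4 F64 8)) : Matrix.SpecialLinearGroup (Fin 4) F64) :
      Matrix (Fin 4) (Fin 4) F64) = toM v 4 (powL mul6 ((1, 0, 0), 0) 4 mu k) := fun k => by
    rw [toM_powL mul6 _ v h0 h1 hadd hmul, Subgroup.coe_pow,
      Matrix.SpecialLinearGroup.coe_pow]
  refine ⟨QuotientGroup.mk x, orderOf_mk_eq_65 (y := y) ?_ ?_ ?_⟩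
  · refine Subtype.ext (Subtype.ext ?_)
    rw [hpow, hp, toM_oneL _ v h0 h1]
    rfl
  all_goals
    intro e'
    have e'' := congrArg (fun g : ↥(Cfsg.SU 4 F64 8) =>
      ((g : Matrix.SpecialLinearGroup (Fin 4) F64) : Matrix (Fin 4) (Fin 4) F64)) e'
    simp only [Subgroup.coe_mul, Matrix.SpecialLinearGroup.coe_mul] at e''
    rw [hpow, show ((y : Matrix.SpecialLinearGroup (Fin 4) F64) : Matrix (Fin 4) (Fin 4) F64) =
      toM v 4 tu from rfl, ← toM_mulL mul6 v h0 hadd hmul, ← toM_mulL mul6 v h0 hadd hmul] at e''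
    exact toM_inj v hinj (hne _ (by simp)) e''
where
  eq_one_of_pow_eq_one_of_coprime_aux {G : Type _} [Monoid G] {d : G} {k l : ℕ} (h1 : d ^ k = 1)
      (h2 : d ^ l = 1) (h : Nat.Coprime k l) : d = 1 := by
    have := Nat.dvd_gcd (orderOf_dvd_of_pow_eq_one h1) (orderOf_dvd_of_pow_eq_one h2)
    rw [h.gcd_eq_one, Nat.dvd_one, orderOf_eq_one_iff] at this
    exact this

/-- The special linear groups. -/
theorem exists_65_psl_two {F64 : Type*} [Field F64] [Fintype F64] (h64 : Fintype.card F64 = 64) :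
    ∃ x : Matrix.ProjectiveSpecialLinearGroup (Fin 2) F64, orderOf x = 65 := by
  obtain ⟨x, hx⟩ := PrimeGraphPSL.exists_orderOf_singer (F := F64) (n := 2) (by norm_num)
  refine ⟨x, hx.trans ?_⟩
  rw [h64]
  decide

theorem exists_65_psl_four {F8 : Type*} [Field F8] [Fintype F8] (h8 : Fintype.card F8 = 8) :
    ∃ x : Matrix.ProjectiveSpecialLinearGroup (Fin 4) F8, orderOf x = 65 := by
  obtain ⟨x, hx⟩ := PrimeGraphPSL.exists_orderOf_singer (F := F8) (n := 4) (by norm_num)
  rw [h8] at hx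
  norm_num [Finset.sum_range_succ] at hx
  refine ⟨x ^ 9, ?_⟩
  rw [orderOf_pow' x (by norm_num), hx]
  norm_num

end CfsgLib.E7Order65
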